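import Mathlib
import Cfsg.Agent.H76.PGroupFixed

set_option autoImplicit false

namespace Cfsg.Agent.H76

variable {G : Type*} [Group G] [Finite G]

/-- A `p`-subgroup has order at most that of a Sylow subgroup. -/
theorem card_le_sylow {p : ℕ} [Fact p.Prime] (P : Subgroup G) (hP : IsPGroup p ↥P) (S : Sylow p G) :
    Nat.card ↥P ≤ Nat.card ↥(S : Subgroup G) := by
  obtain ⟨T, hT⟩ := hP.exists_le_sylow
  calc Nat.card ↥P ≤ Nat.card ↥(T : Subgroup G) := Subgroup.card_le_of_le hT
    _ = Nat.card ↥(S : Subgroup G) := T.card_eq_multiplicity.trans S.card_eq_multiplicity.symm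

/-- Normalizer growth inside a `p`-subgroup. -/
theorem exists_normalizing_not_mem {p : ℕ} [Fact p.Prime] (P D : Subgroup G) (hP : IsPGroup p ↥P)
    (h : D < P) : ∃ g ∈ P, g ∉ D ∧ g ∈ Subgroup.normalizer (D : Set G) := by
  have : Group.IsNilpotent ↥P := hP.isNilpotent
  have hlt : D.subgroupOf P < ⊤ := by
    refine lt_top_iff_ne_top.mpr fun he => h.not_ge ?_
    exact Subgroup.subgroupOf_eq_top.mp he
  obtain ⟨g, hg, hg'⟩ := SetLike.exists_of_lt (Group.normalizerCondition_of_isNilpotent (D.subgroupOf P) hlt)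
  refine ⟨g, g.2, hg', ?_⟩
  rw [Subgroup.mem_normalizer_iff] at hg ⊢
  intro d
  constructor
  · intro hd
    exact (hg ⟨d, h.le hd⟩).mp hd
  · intro hd
    have hdP : d ∈ P := by
      have := mul_mem (mul_mem (inv_mem g.2) (h.le hd)) g.2
      simpa [mul_assoc] using this
    exact (hg ⟨d, hdP⟩).mpr hd

/-- In a group where every intersection of two Sylow `p`-subgroups lies in the centre of some Sylow
`p`-subgroup, it lies in the centre of each of the two. -/
theorem inf_le_center_of_ci {p : ℕ} [Fact p.Prime]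
    (hCI : ∀ S T : Sylow p G, S ≠ T → ∃ U : Sylow p G,
      (S : Subgroup G) ⊓ (T : Subgroup G) ≤ (Subgroup.center ↥(U : Subgroup G)).map (U : Subgroup G).subtype) :
    ∀ S T : Sylow p G, S ≠ T →
      (S : Subgroup G) ⊓ (T : Subgroup G) ≤ (Subgroup.center ↥(S : Subgroup G)).map (S : Subgroup G).subtype := by
  suffices h : ∀ n : ℕ, ∀ S T : Sylow p G, S ≠ T →
      Nat.card G - Nat.card ↥((S : Subgroup G) ⊓ (T : Subgroup G)) = n →
      (S : Subgroup G) ⊓ (T : Subgroup G) ≤ (Subgroup.center ↥(S : Subgroup G)).map (S : Subgroup G).subtype by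
    exact fun S T hST => h _ S T hST rfl
  intro n
  induction n using Nat.strong_induction_on with
  | _ n ih =>
    intro S T hST hn
    set D : Subgroup G := (S : Subgroup G) ⊓ (T : Subgroup G) with hD
    have step : ∀ T' : Sylow p G, S ≠ T' → D < (S : Subgroup G) ⊓ (T' : Subgroup G) →
        D ≤ (Subgroup.center ↥(S : Subgroup G)).map (S : Subgroup G).subtype := by
      intro T' hne hlt
      refine hlt.le.trans (ih _ ?_ S T' hne rfl)
      rw [← hn]
      have h1 : Nat.card ↥D < Nat.card ↥((S : Subgroup G) ⊓ (T' : Subgroup G)) := by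
        rw [← SetLike.coe_sort_coe, ← SetLike.coe_sort_coe, Nat.card_coe_set_eq, Nat.card_coe_set_eq]
        exact Set.ncard_lt_ncard hlt (Set.toFinite _)
      have h2 := Subgroup.card_le_card_group ((S : Subgroup G) ⊓ (T' : Subgroup G))
      omega
    obtain ⟨U, hU⟩ := hCI S T hST
    by_cases hSU : S = U
    · subst hSU; exact hU
    have hDU : D ≤ (U : Subgroup G) := hU.trans (Subgroup.map_subtype_le _)
    rcases lt_or_eq_of_le (le_inf inf_le_left hDU : D ≤ (S : Subgroup G) ⊓ (U : Subgroup G)) with hlt | heq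
    · exact step U hSU hlt
    have hcomm : ∀ d ∈ D, ∀ u ∈ (U : Subgroup G), u * d = d * u := by
      intro d hd u hu
      obtain ⟨z, hz, rfl⟩ := hU hd
      exact congrArg Subtype.val (Subgroup.mem_center_iff.mp hz ⟨u, hu⟩)
    have hDS : D < (S : Subgroup G) := by
      refine lt_of_le_of_ne inf_le_left fun he => hST ?_
      have hle : (S : Subgroup G) ≤ (T : Subgroup G) := he ▸ inf_le_right
      exact (Sylow.ext (S.3 T.2 hle)).symm
    obtain ⟨g, hgS, hgD, hgN⟩ := exists_normalizing_not_mem _ D S.2 hDS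
    set N := Subgroup.normalizer (D : Set G) with hN
    have hUN : (U : Subgroup G) ≤ N := le_normalizer_of_conj_mem _ _ fun u hu d hd => by
      rwa [hcomm d hd u hu, mul_inv_cancel_right]
    have hQ : IsPGroup p ↥(((S : Subgroup G) ⊓ N).subgroupOf N) :=
      (S.2.to_le inf_le_left).comap_of_injective N.subtype N.subtype_injective
    obtain ⟨R, hR⟩ := hQ.exists_le_sylow
    obtain ⟨h, hh⟩ := MulAction.exists_smul_eq ↥N (U.subtype hUN) R
    have hQ' : (S : Subgroup G) ⊓ N ≤ ((h : G) • U : Sylow p G) := by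
      intro x hx
      have hxR : (⟨x, hx.2⟩ : ↥N) ∈ (h • (U.subtype hUN) : Sylow p ↥N) := hh ▸ hR hx
      rw [← SetLike.mem_coe, Sylow.coe_smul] at hxR
      obtain ⟨y, hy, hy'⟩ := hxR
      rw [Sylow.coe_subgroup_smul]
      exact ⟨(y : G), hy, congrArg Subtype.val hy'⟩
    by_cases hT' : S = (h : G) • U
    · intro d hd
      refine ⟨⟨d, hd.1⟩, Subgroup.mem_center_iff.mpr fun s => Subtype.ext ?_, rfl⟩
      have hs : (s : G) ∈ ((h : G) • U : Sylow p G) := hT' ▸ s.2
      rw [← SetLike.mem_coe, Sylow.coe_smul] at hs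
      obtain ⟨y, hy, hy'⟩ := hs
      have hd' : (h : G)⁻¹ * d * (h : G) ∈ D := by
        simpa using (Subgroup.mem_normalizer_iff.mp (inv_mem h.2) d).mp hd
      have hc := hcomm _ hd' y hy
      show (s : G) * d = d * s
      rw [← hy']
      show ((h : G) * y * (h : G)⁻¹) * d = d * ((h : G) * y * (h : G)⁻¹)
      calc ((h : G) * y * (h : G)⁻¹) * d = (h : G) * (y * ((h : G)⁻¹ * d * h)) * (h : G)⁻¹ := by group
        _ = (h : G) * (((h : G)⁻¹ * d * h) * y) * (h : G)⁻¹ := by rw [hc]
        _ = d * ((h : G) * y * (h : G)⁻¹) := by group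
    · refine step _ hT' (lt_of_le_of_ne ?_ fun he => hgD (he ▸ ⟨hgS, hQ' ⟨hgS, hgN⟩⟩))
      exact fun d hd => ⟨hd.1, hQ' ⟨hd.1, Subgroup.le_normalizer hd⟩⟩

end Cfsg.Agent.H76
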