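import Mathlib
import Cfsg.Agent.H76.CIGroup
import Cfsg.Agent.H22.Fusion

set_option autoImplicit false

namespace Cfsg.Agent.H76

/-- A cyclic group has at most one element of order two. -/
theorem eq_of_sq_one_of_mem_zpowers {G : Type*} [Group G] (x a b : G) (ha : a ∈ Subgroup.zpowers x)
    (hb : b ∈ Subgroup.zpowers x) (ha2 : a * a = 1) (hb2 : b * b = 1) (ha1 : a ≠ 1) (hb1 : b ≠ 1) : a = b := by
  obtain ⟨i, rfl⟩ := ha
  obtain ⟨k, rfl⟩ := hb
  have h1 : ∀ j : ℤ, x ^ j * x ^ j = 1 → x ^ j ≠ 1 → ∃ c : ℤ, 2 * j = (orderOf x : ℤ) * (2 * c + 1) := by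
    intro j hj hj1
    obtain ⟨c, hc⟩ := orderOf_dvd_iff_zpow_eq_one.mpr (show x ^ (2 * j) = 1 by rw [two_mul, zpow_add, hj])
    rcases Int.even_or_odd c with ⟨d, rfl⟩ | ⟨d, rfl⟩
    · exact absurd (orderOf_dvd_iff_zpow_eq_one.mp ⟨d, by linarith⟩) hj1
    · exact ⟨d, hc⟩
  obtain ⟨c, hc⟩ := h1 i ha2 ha1
  obtain ⟨d, hd⟩ := h1 k hb2 hb1
  show x ^ i = x ^ k
  rw [show i = (i - k) + k by ring, zpow_add,
    orderOf_dvd_iff_zpow_eq_one.mp (show (orderOf x : ℤ) ∣ i - k from ⟨c - d, by linarith⟩), one_mul]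

/-- In a group with central Sylow 2-intersections the involution of a characteristic cyclic
subgroup of a Sylow 2-subgroup `S` is fixed by every conjugation taking it back into `S`. -/
theorem ci_char_cyclic_isolated {G : Type*} [Group G] [Finite G]
    (hCI : ∀ S T : Sylow 2 G, S ≠ T → ∃ U : Sylow 2 G,
      (S : Subgroup G) ⊓ (T : Subgroup G) ≤ (Subgroup.center ↥(U : Subgroup G)).map (U : Subgroup G).subtype)
    (S : Sylow 2 G) (C : Subgroup ↥(S : Subgroup G)) (hCc : IsCyclic ↥C) (hCh : C.Characteristic)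
    (c : ↥(S : Subgroup G)) (hc : c ∈ C) (hc2 : orderOf c = 2) :
    ∀ g : G, g * (c : G) * g⁻¹ ∈ (S : Subgroup G) → g * (c : G) * g⁻¹ = c := by
  have huniq : ∀ d ∈ C, orderOf d = 2 → d = c := by
    intro d hd hd2
    obtain ⟨x, hx⟩ := hCc.exists_generator
    have h1 : ∀ e : ↥(S : Subgroup G), e ∈ C → orderOf e = 2 → e ∈ Subgroup.zpowers (x : ↥(S : Subgroup G)) ∧ e * e = 1 ∧ e ≠ 1 := by
      intro e he he2
      obtain ⟨k, hk⟩ := hx ⟨e, he⟩
      exact ⟨⟨k, congrArg Subtype.val hk⟩, by have h := pow_orderOf_eq_one e; rwa [he2, sq] at h,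
        fun h => by rw [h, orderOf_one] at he2; norm_num at he2⟩
    obtain ⟨a1, a2, a3⟩ := h1 d hd hd2
    obtain ⟨b1, b2, b3⟩ := h1 c hc hc2
    exact eq_of_sq_one_of_mem_zpowers _ _ _ a1 b1 a2 b2 a3 b3
  have haut : ∀ φ : ↥(S : Subgroup G) ≃* ↥(S : Subgroup G), φ c = c := by
    intro φ
    refine huniq _ ?_ ((MulEquiv.orderOf_eq φ c).trans hc2)
    have h1 := hCh.fixed φ
    rw [← h1] at hc
    exact hc
  have hnorm : ∀ n ∈ Subgroup.normalizer ((S : Subgroup G) : Set G), n * (c : G) * n⁻¹ = c := by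
    intro n hn
    exact congrArg Subtype.val (haut ((S : Subgroup G).normalizerMonoidHom ⟨n, hn⟩))
  have hcent : (c : G) ∈ Subgroup.centralizer ((S : Subgroup G) : Set G) := by
    rw [Subgroup.mem_centralizer_iff]
    exact fun s hs => mul_inv_eq_iff_eq_mul.mp (hnorm s (Subgroup.le_normalizer hs))
  intro g hg
  by_cases hgS : g • S = S
  · exact hnorm g (Sylow.smul_eq_iff_mem_normalizer.mp hgS)
  · have hgc : g * (c : G) * g⁻¹ ∈ ((g • S : Sylow 2 G) : Subgroup G) :=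
      Subgroup.smul_mem_pointwise_smul _ (MulAut.conj g) _ c.2
    obtain ⟨z, hz, hzeq⟩ := inf_le_center_of_ci hCI S (g • S) (fun h => hgS h.symm) ⟨hg, hgc⟩
    have hgcent : g * (c : G) * g⁻¹ ∈ Subgroup.centralizer ((S : Subgroup G) : Set G) := by
      rw [Subgroup.mem_centralizer_iff]
      intro s hs
      rw [← hzeq]
      exact congrArg Subtype.val (Subgroup.mem_center_iff.mp hz ⟨s, hs⟩)
    obtain ⟨n, hn, hn'⟩ := Cfsg.Agent.H22.burnside_fusion_central S hcent g hgcent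
    rw [← hn']
    exact hnorm n hn

end Cfsg.Agent.H76
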