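import Mathlib

/-!
A finite computation on the regular module of the unitriangular group of order `8`.

`act` describes the action of a unitriangular triple on the last two coordinates of `F₂³`; a
function `F` records the commutator of a fixed vector with its translates in these coordinates.
-/

set_option autoImplicit false

namespace Cfsg.Agent.H76.Rud

/-- Unitriangular triples. -/
abbrev E : Type := Bool × Bool × Bool

/-- The product of two triples. -/
def mulE (g h : E) : E :=
  (xor g.1 h.1, xor (xor g.2.1 h.2.1) (g.1 && h.2.2), xor g.2.2 h.2.2)

/-- The inverse of a triple. -/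
def invE (g : E) : E := (g.1, xor g.2.1 (g.1 && g.2.2), g.2.2)

/-- The action on the last two coordinates. -/
def act (g : E) (z : Bool × Bool) : Bool × Bool := (xor z.1 (g.2.2 && z.2), z.2)

/-- The action on all three coordinates. -/
def act3 (g : E) (z : E) : E :=
  (xor (xor z.1 (g.1 && z.2.1)) (g.2.1 && z.2.2), xor z.2.1 (g.2.2 && z.2.2), z.2.2)

/-- The first coordinate after translating by `g`. -/
def lam (g : E) (z : Bool × Bool) : Bool := (act g z).1

/-- The bilinear form on the basis vectors. -/
def bee (F : E → Bool × Bool) (g h : E) : Bool := lam g (F (mulE (invE g) h))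

/-- The bilinear form on two lists of basis vectors. -/
def bsum (F : E → Bool × Bool) : List E → List E → Bool
  | [], _ => false
  | g :: l, m => xor (m.foldr (fun h s => xor (bee F g h) s) false) (bsum F l m)

/-- The quadratic form on a list of basis vectors. -/
def qsum (F : E → Bool × Bool) (c : Bool × Bool) : List E → Bool
  | [] => false
  | g :: l => xor (xor (lam g c) (qsum F c l)) (bsum F [g] l)

/-- Five vectors spanning a singular subspace for every admissible form. -/
def wit : List (List E) :=
  [[(false, false, true), (true, false, true), (false, true, true), (true, true, true)],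
   [(false, false, false), (true, false, false), (false, true, false), (true, true, false),
    (false, false, true), (true, true, true)],
   [(false, false, false), (true, false, false), (false, true, false), (true, true, false)],
   [(true, false, false), (true, true, false), (false, true, true), (true, true, true)],
   [(true, false, false), (false, true, false), (false, true, true), (true, true, true)]]

/-- The characteristic function of a list. -/
def chi (l : List E) (g : E) : Bool := decide (g ∈ l)

/-- Admissible functions, given by five bits. -/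
def mkF (u₁ u₂ u₄ u₆ u₇ : Bool) : E → Bool × Bool
  | (false, false, false) => (false, false)
  | (true, false, false) => (false, u₁)
  | (false, true, false) => (u₂, false)
  | (true, true, false) => (u₁, u₁)
  | (false, false, true) => (u₄, false)
  | (false, true, true) => (xor (xor u₁ u₂) (xor u₄ u₇), false)
  | (true, false, true) => (u₆, u₇)
  | (true, true, true) => (xor u₆ u₇, u₇)

theorem wit_mkF : ∀ u₁ u₂ u₄ u₆ u₇ c₁ c₂ : Bool, ∀ l ∈ wit,
    qsum (mkF u₁ u₂ u₄ u₆ u₇) (c₁, c₂) l = false ∧
      ∀ m ∈ wit, bsum (mkF u₁ u₂ u₄ u₆ u₇) l m = false := by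
  decide +kernel

theorem eq_mkF (F : E → Bool × Bool) (h0 : F (false, false, false) = (false, false))
    (hinv : ∀ d, F (invE d) = act (invE d) (F d)) (hfix : ∀ d, invE d = d → act3 d
      (false, (F d).1, (F d).2) = (false, (F d).1, (F d).2))
    (hsum : ∀ i : (Bool × Bool) → Bool, i = Prod.fst ∨ i = Prod.snd →
      xor (xor (xor (i (F (false, false, false))) (i (F (true, false, false))))
        (xor (i (F (false, true, false))) (i (F (true, true, false)))))
      (xor (xor (i (F (false, false, true))) (i (F (true, false, true))))
        (xor (i (F (false, true, true))) (i (F (true, true, true))))) = false) :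
    F = mkF (F (true, false, false)).2 (F (false, true, false)).1 (F (false, false, true)).1
      (F (true, false, true)).1 (F (true, false, true)).2 := by
  have ha := hfix (true, false, false) rfl
  have hb := hfix (false, true, false) rfl
  have hab := hfix (true, true, false) rfl
  have hc := hfix (false, false, true) rfl
  have hbc := hfix (false, true, true) rfl
  have hr := hinv (true, false, true)
  have h1 := hsum Prod.fst (Or.inl rfl)
  have h2 := hsum Prod.snd (Or.inr rfl)
  simp only [act3, act, invE, Bool.false_and, Bool.true_and, Bool.and_false, Bool.xor_false,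
    Bool.false_xor, Prod.mk.injEq, Bool.xor_assoc] at ha hb hab hc hbc hr
  funext d
  obtain ⟨a, b, c⟩ := d
  rcases hA : F (true, false, false) with ⟨a₁, a₂⟩
  rcases hB : F (false, true, false) with ⟨b₁, b₂⟩
  rcases hAB : F (true, true, false) with ⟨d₁, d₂⟩
  rcases hC : F (false, false, true) with ⟨c₁, c₂⟩
  rcases hBC : F (false, true, true) with ⟨e₁, e₂⟩
  rcases hR : F (true, false, true) with ⟨r₁, r₂⟩
  simp only [h0, hA, hB, hAB, hC, hBC, hR] at ha hb hab hc hbc hr h1 h2
  rw [hr] at h1 h2
  cases a <;> cases b <;> cases c <;> simp only [mkF, h0, hA, hB, hAB, hC, hBC, hR, hr] <;>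
    (clear hA hB hAB hC hBC hR hr hsum hfix hinv h0; revert ha hb hab hc hbc h1 h2;
     revert a₁ a₂ b₁ b₂ d₁ d₂ c₁ c₂ e₁ e₂ r₁ r₂; decide)

theorem wit_indep : ∀ ε₁ ε₂ ε₃ ε₄ ε₅ : Bool, (∀ g : E, (((((ε₁ && chi (wit.getD 0 []) g).xor
    (ε₂ && chi (wit.getD 1 []) g)).xor (ε₃ && chi (wit.getD 2 []) g)).xor
    (ε₄ && chi (wit.getD 3 []) g)).xor (ε₅ && chi (wit.getD 4 []) g)) = false) →
    ε₁ = false ∧ ε₂ = false ∧ ε₃ = false ∧ ε₄ = false ∧ ε₅ = false := by
  decide +kernel

end Cfsg.Agent.H76.Rud
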