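import Mathlib
import Cfsg.Agent.H76.RudvalisComp
import Cfsg.Agent.H24.PGroupBasic

/-!
Two-groups of order at least `2 ^ 14` whose fourth centre has order `16` and in which the
centralizer `W` of the third centre has small Frattini subgroup: `W` modulo its Frattini subgroup
is the regular module of a dihedral group of order `8`.
-/

set_option autoImplicit false
set_option linter.unusedSectionVars false
set_option linter.style.haveILetI false

namespace Cfsg.Agent.H76.Rud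

open scoped commutatorElement

variable {T : Type*} [Group T] [Finite T]

local notation "Z" => Subgroup.upperCentralSeries T

/-- The centralizer of the third centre. -/
abbrev cW (T : Type*) [Group T] : Subgroup T :=
  Subgroup.centralizer ((Subgroup.upperCentralSeries T 3 : Subgroup T) : Set T)

/-- The hypotheses. -/
structure Hyp (T : Type*) [Group T] : Prop where
  hT : IsPGroup 2 T
  ha : 2 ^ 14 ≤ Nat.card T
  hb : Nat.card ↥(Subgroup.upperCentralSeries T 4) = 16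
  hc : Nat.card ↥(frattini ↥(cW T)) ≤ 8
  hd : ∀ U : Subgroup ↥(cW T), U.index ≤ 16 → frattini ↥(cW T) ≤ U

omit [Finite T] in
theorem idx2 {A B : Subgroup T} (hAB : A ≤ B) (hcard : Nat.card ↥B = 2 * Nat.card ↥A)
    [Finite T] {x y : T} (hx : x ∈ B) (hxA : x ∉ A) (hy : y ∈ B) : y ∈ A ∨ x⁻¹ * y ∈ A := by
  have h1 : (A.subgroupOf B).index = 2 := by
    have h := Subgroup.card_mul_index (A.subgroupOf B)
    rw [Nat.card_congr (Subgroup.subgroupOfEquivOfLe hAB).toEquiv, hcard, mul_comm 2] at h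
    exact Nat.eq_of_mul_eq_mul_left Nat.card_pos h
  by_cases hyA : y ∈ A
  · exact Or.inl hyA
  · refine Or.inr ?_
    have h := (Subgroup.mul_mem_iff_of_index_two h1 (a := (⟨x, hx⟩ : ↥B)⁻¹) (b := ⟨y, hy⟩)).2
      (by simp [Subgroup.mem_subgroupOf, hxA, hyA])
    simpa [Subgroup.mem_subgroupOf] using h

theorem two_mul_le (hT : IsPGroup 2 T) {A B : Subgroup T} (h : A < B) :
    2 * Nat.card ↥A ≤ Nat.card ↥B := by
  obtain ⟨k, hk⟩ := Subgroup.card_dvd_of_le h.le
  have hA : 0 < Nat.card ↥A := Nat.card_pos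
  have hB : 0 < Nat.card ↥B := Nat.card_pos
  rcases k with _ | _ | k
  · omega
  · exact absurd (Subgroup.eq_of_le_of_card_ge h.le (by omega)) h.ne
  · rw [hk]; ring_nf; omega

theorem exists_mem_succ (hT : IsPGroup 2 T) {k : ℕ} (N : Subgroup T) [N.Normal] (h : ¬ N ≤ Z k) :
    ∃ x ∈ N, x ∈ Z (k + 1) ∧ x ∉ Z k := by
  have hne : N.map (QuotientGroup.mk' (Z k)) ≠ ⊥ := by
    rw [Ne, Subgroup.map_eq_bot_iff, QuotientGroup.ker_mk']
    exact h
  haveI : (N.map (QuotientGroup.mk' (Z k))).Normal :=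
    Subgroup.Normal.map inferInstance _ (QuotientGroup.mk'_surjective _)
  obtain ⟨⟨y, hy⟩, hy1⟩ : ∃ y : ↥(N.map (QuotientGroup.mk' (Z k)) ⊓ Subgroup.center (T ⧸ Z k)),
      y ≠ 1 := by
    haveI := (Subgroup.nontrivial_iff_ne_bot _).2
      (Cfsg.Agent.H24.inf_center_ne_bot (hT.to_quotient (Z k)) hne)
    exact exists_ne 1
  obtain ⟨⟨x, hxN, hx⟩, hyc⟩ := hy
  subst hx
  refine ⟨x, hxN, Subgroup.mem_upperCentralSeries_succ_iff.2 fun t => ?_, fun hc => hy1 ?_⟩
  · rw [← QuotientGroup.eq_one_iff]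
    have := Subgroup.mem_center_iff.1 hyc (QuotientGroup.mk' (Z k) t)
    rw [← QuotientGroup.mk'_apply, map_commutatorElement, commutatorElement_eq_one_iff_mul_comm]
    exact this.symm
  · exact Subtype.ext ((QuotientGroup.eq_one_iff x).2 hc)

namespace Hyp

variable (h : Hyp T)
include h

theorem Z_lt {k : ℕ} (hk : k ≤ 3) : Z k < Z (k + 1) := by
  refine lt_of_le_of_ne (Subgroup.upperCentralSeries_mono T k.le_succ) fun he => ?_
  have hne : ¬ (⊤ : Subgroup T) ≤ Z k := fun ht => by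
    have h1 := Subgroup.card_le_of_le (ht.trans (Subgroup.upperCentralSeries_mono T
      (show k ≤ 4 by omega)))
    rw [Subgroup.card_top, h.hb] at h1
    have := h.ha
    omega
  obtain ⟨x, -, hx, hx'⟩ := exists_mem_succ h.hT ⊤ hne
  exact hx' (he ▸ hx)

theorem card_Z {k : ℕ} (hk : k ≤ 4) : Nat.card ↥(Z k) = 2 ^ k := by
  have h0 : Nat.card ↥(Z 0) = 1 := by simp
  have h1 := two_mul_le h.hT (h.Z_lt (show 0 ≤ 3 by omega))
  have h2 := two_mul_le h.hT (h.Z_lt (show 1 ≤ 3 by omega))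
  have h3 := two_mul_le h.hT (h.Z_lt (show 2 ≤ 3 by omega))
  have h4 := two_mul_le h.hT (h.Z_lt (show 3 ≤ 3 by omega))
  have hb := h.hb
  simp only [Nat.reduceAdd] at h1 h2 h3 h4
  interval_cases k <;> first | exact h0 | exact hb | (norm_num only; omega)

theorem le_Z_of_card {k : ℕ} (hk : k ≤ 3) (N : Subgroup T) [N.Normal]
    (hN : Nat.card ↥N ≤ 2 ^ k) : N ≤ Z k := by
  by_contra hle
  have key : ∀ j, j ≤ k + 1 → 2 ^ j ≤ Nat.card ↥(N ⊓ Z j) := by
    intro j
    induction j with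
    | zero => intro _; rw [pow_zero]; exact Nat.card_pos
    | succ j ih =>
      intro hj
      have hj' : ¬ N ≤ Z j := fun hc =>
        hle (hc.trans (Subgroup.upperCentralSeries_mono T (show j ≤ k by omega)))
      obtain ⟨x, hxN, hx, hx'⟩ := exists_mem_succ h.hT N hj'
      have hlt : N ⊓ Z j < N ⊓ Z (j + 1) := by
        refine lt_of_le_of_ne (inf_le_inf_left _ (Subgroup.upperCentralSeries_mono T j.le_succ))
          fun he => hx' ?_
        have : x ∈ N ⊓ Z (j + 1) := ⟨hxN, hx⟩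
        rw [← he] at this
        exact this.2
      have := two_mul_le h.hT hlt
      have := ih (by omega)
      rw [pow_succ]
      omega
  have h1 := key (k + 1) le_rfl
  have h2 := Subgroup.card_le_of_le (inf_le_left : N ⊓ Z (k + 1) ≤ N)
  rw [pow_succ] at h1
  have := Nat.two_pow_pos k
  omega

theorem eq_Z (N : Subgroup T) [N.Normal] (hN : Nat.card ↥N ≤ 8) : ∃ j ≤ 3, N = Z j := by
  obtain ⟨j, hj⟩ := (h.hT.to_subgroup N).exists_card_eq
  have hj3 : j ≤ 3 := by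
    by_contra hc
    have : 2 ^ 4 ≤ 2 ^ j := Nat.pow_le_pow_right (by omega) (by omega)
    omega
  exact ⟨j, hj3, Subgroup.eq_of_le_of_card_ge (h.le_Z_of_card hj3 N hj.le)
    (by rw [hj, h.card_Z (by omega)])⟩

/-- The Frattini subgroup of `W`, in `T`. -/
theorem exists_phi : ∃ k ≤ 3, (frattini ↥(cW T)).map (cW T).subtype = Z k := by
  have : ((frattini ↥(cW T)).map (cW T).subtype).Normal := inferInstance
  refine h.eq_Z _ ?_
  rw [Subgroup.card_map_of_injective (cW T).subtype_injective]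
  exact h.hc

end Hyp

/-- The data: generators of the centres and a maximal subgroup of `W`. -/
structure Data (T : Type*) [Group T] where
  hyp : Hyp T
  k : ℕ
  hk : k ≤ 3
  hphi : (frattini ↥(cW T)).map (cW T).subtype = Subgroup.upperCentralSeries T k
  z0 : T
  z1 : T
  z2 : T
  hz0 : z0 ∈ Subgroup.upperCentralSeries T 1
  hz0' : z0 ∉ Subgroup.upperCentralSeries T 0
  hz1 : z1 ∈ Subgroup.upperCentralSeries T 2
  hz1' : z1 ∉ Subgroup.upperCentralSeries T 1
  hz2 : z2 ∈ Subgroup.upperCentralSeries T 3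
  hz2' : z2 ∉ Subgroup.upperCentralSeries T 2

theorem Hyp.exists_data (h : Hyp T) : Nonempty (Data T) := by
  obtain ⟨k, hk, hphi⟩ := h.exists_phi
  obtain ⟨z0, hz0, hz0'⟩ := SetLike.exists_of_lt (h.Z_lt (show 0 ≤ 3 by omega))
  obtain ⟨z1, hz1, hz1'⟩ := SetLike.exists_of_lt (h.Z_lt (show 1 ≤ 3 by omega))
  obtain ⟨z2, hz2, hz2'⟩ := SetLike.exists_of_lt (h.Z_lt (show 2 ≤ 3 by omega))
  exact ⟨⟨h, k, hk, hphi, z0, z1, z2, hz0, hz0', hz1, hz1', hz2, hz2'⟩⟩

namespace Data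

variable (D : Data T)
include D

theorem conj_fix {t z : T} (hz : z ∈ Z 1) : t * z * t⁻¹ = z := by
  rw [Subgroup.upperCentralSeries_one] at hz
  rw [Subgroup.mem_center_iff.1 hz t, mul_inv_cancel_right]

theorem mem_Z1 {z : T} (hz : z ∈ Z 1) : z = 1 ∨ z = D.z0 := by
  have hc := D.hyp.card_Z (show 1 ≤ 4 by omega)
  have h0 := D.hyp.card_Z (show 0 ≤ 4 by omega)
  rcases idx2 (Subgroup.upperCentralSeries_mono T (Nat.le_succ 0)) (by rw [hc, h0]; rfl)
    D.hz0 D.hz0' hz with h | h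
  · exact Or.inl (by simpa using h)
  · exact Or.inr (by simpa [inv_mul_eq_one, eq_comm] using h)

theorem mem_Z2 {z : T} (hz : z ∈ Z 2) : z ∈ Z 1 ∨ D.z1⁻¹ * z ∈ Z 1 :=
  idx2 (Subgroup.upperCentralSeries_mono T (Nat.le_succ 1))
    (by rw [D.hyp.card_Z (by omega), D.hyp.card_Z (by omega)]; rfl) D.hz1 D.hz1' hz

theorem mem_Z3 {z : T} (hz : z ∈ Z 3) : z ∈ Z 2 ∨ D.z2⁻¹ * z ∈ Z 2 :=
  idx2 (Subgroup.upperCentralSeries_mono T (Nat.le_succ 2))
    (by rw [D.hyp.card_Z (by omega), D.hyp.card_Z (by omega)]; rfl) D.hz2 D.hz2' hz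

/-- Two elements acting alike on `z₁` and `z₂` are congruent modulo `W`. -/
theorem inv_mul_mem_W {t s : T} (h1 : ⁅t, D.z1⁆ = ⁅s, D.z1⁆) (h2 : ⁅t, D.z2⁆ = ⁅s, D.z2⁆) :
    s⁻¹ * t ∈ cW T := by
  have e : ∀ z, t * z * t⁻¹ = s * z * s⁻¹ → s⁻¹ * t * z = z * (s⁻¹ * t) := by
    intro z hz
    calc s⁻¹ * t * z = s⁻¹ * (t * z * t⁻¹) * t := by group
      _ = s⁻¹ * (s * z * s⁻¹) * t := by rw [hz]
      _ = z * (s⁻¹ * t) := by group
  simp only [commutatorElement_def, mul_left_inj] at h1 h2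
  have c1 : Commute (s⁻¹ * t) D.z1 := e _ h1
  have c2 : Commute (s⁻¹ * t) D.z2 := e _ h2
  have c0 : ∀ z ∈ Z 1, Commute (s⁻¹ * t) z := fun z hz => by
    rw [Subgroup.upperCentralSeries_one] at hz
    exact Subgroup.mem_center_iff.1 hz _
  have c12 : ∀ z ∈ Z 2, Commute (s⁻¹ * t) z := fun z hz => by
    rcases D.mem_Z2 hz with h | h
    · exact c0 z h
    · simpa using c1.mul_right (c0 _ h)
  refine Subgroup.mem_centralizer_iff.2 fun z hz => ?_
  rcases D.mem_Z3 hz with h | h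
  · exact (c12 z h).symm
  · exact (show Commute (s⁻¹ * t) z by simpa using c2.mul_right (c12 _ h)).symm

theorem comm_z1 (t : T) : ⁅t, D.z1⁆ ∈ Z 1 := by
  rw [← inv_mem_iff, commutatorElement_inv]
  exact Subgroup.mem_upperCentralSeries_succ_iff.1 D.hz1 t

theorem comm_z2 (t : T) : ⁅t, D.z2⁆ ∈ Z 2 := by
  rw [← inv_mem_iff, commutatorElement_inv]
  exact Subgroup.mem_upperCentralSeries_succ_iff.1 D.hz2 t

theorem index_W_le : (cW T).index ≤ 8 := by
  rw [Subgroup.index_eq_card]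
  have hi : Function.Injective fun q : T ⧸ cW T =>
      ((⟨⁅q.out, D.z1⁆, D.comm_z1 _⟩, ⟨⁅q.out, D.z2⁆, D.comm_z2 _⟩) : ↥(Z 1) × ↥(Z 2)) := by
    intro q r hqr
    simp only [Prod.mk.injEq, Subtype.mk.injEq] at hqr
    rw [← q.out_eq', ← r.out_eq']
    exact (QuotientGroup.eq.2 (D.inv_mul_mem_W hqr.1 hqr.2)).symm
  refine (Nat.card_le_card_of_injective _ hi).trans_eq ?_
  rw [Nat.card_prod, D.hyp.card_Z (by omega), D.hyp.card_Z (by omega)]
  rfl

theorem sq_mem_phi {x : T} (hx : x ∈ cW T) : x * x ∈ Z D.k := by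
  rw [← D.hphi, ← sq]
  exact ⟨(⟨x, hx⟩ : ↥(cW T)) ^ 2,
    Cfsg.Agent.H24.pow_mem_frattini (D.hyp.hT.to_subgroup _) _, rfl⟩

theorem comm_mem_phi {x y : T} (hx : x ∈ cW T) (hy : y ∈ cW T) : ⁅x, y⁆ ∈ Z D.k := by
  rw [← D.hphi]
  exact ⟨⁅(⟨x, hx⟩ : ↥(cW T)), ⟨y, hy⟩⁆,
    Cfsg.Agent.H24.commutator_le_frattini (D.hyp.hT.to_subgroup _)
      (Subgroup.commutator_mem_commutator (Subgroup.mem_top _) (Subgroup.mem_top _)), rfl⟩

theorem phi_le_W : Z D.k ≤ cW T := by
  rw [← D.hphi]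
  exact Subgroup.map_subtype_le _

theorem not_W_le : ¬ cW T ≤ Z D.k := by
  intro hle
  have h1 := Subgroup.card_le_of_le hle
  have h2 := Subgroup.card_mul_index (cW T)
  rw [D.hyp.card_Z (by have := D.hk; omega)] at h1
  have h3 : 2 ^ D.k ≤ 2 ^ 3 := Nat.pow_le_pow_right (by omega) D.hk
  have := D.hyp.ha
  have := D.index_W_le
  nlinarith

/-- A fixed element of `W` modulo its Frattini subgroup. -/
noncomputable def n : T := (exists_mem_succ D.hyp.hT (cW T) D.not_W_le).choose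

theorem n_spec : D.n ∈ cW T ∧ D.n ∈ Z (D.k + 1) ∧ D.n ∉ Z D.k :=
  (exists_mem_succ D.hyp.hT (cW T) D.not_W_le).choose_spec

theorem exists_M : ∃ M : Subgroup ↥(cW T), IsCoatom M ∧ (⟨D.n, D.n_spec.1⟩ : ↥(cW T)) ∉ M := by
  by_contra hc
  push Not at hc
  refine D.n_spec.2.2 ?_
  rw [← D.hphi]
  exact ⟨⟨D.n, D.n_spec.1⟩, Subgroup.mem_iInf.2 fun M => Subgroup.mem_iInf.2 fun hM => hc M hM, rfl⟩

/-- A maximal subgroup of `W` avoiding `n`. -/
noncomputable def M : Subgroup T := D.exists_M.choose.map (cW T).subtype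

theorem phi_le_M : Z D.k ≤ D.M := by
  rw [← D.hphi]
  exact Subgroup.map_mono (iInf₂_le _ D.exists_M.choose_spec.1)

theorem n_not_mem_M : D.n ∉ D.M := by
  rintro ⟨x, hx, hxn⟩
  exact D.exists_M.choose_spec.2 (by rwa [show x = ⟨D.n, D.n_spec.1⟩ from Subtype.ext hxn] at hx)

theorem mul_mem_M {a b : T} (ha : a ∈ cW T) (hb : b ∈ cW T) :
    a * b ∈ D.M ↔ (a ∈ D.M ↔ b ∈ D.M) := by
  have hM := D.exists_M.choose_spec.1
  have hi : D.exists_M.choose.index = 2 :=
    (Cfsg.Agent.H24.coatom_spec (D.hyp.hT.to_subgroup (cW T)) hM).2.1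
  have key : ∀ (x : T) (hx : x ∈ cW T), x ∈ D.M ↔ (⟨x, hx⟩ : ↥(cW T)) ∈ D.exists_M.choose := by
    intro x hx
    exact ⟨fun ⟨y, hy, hyx⟩ => by rwa [show y = ⟨x, hx⟩ from Subtype.ext hyx] at hy,
      fun h => ⟨_, h, rfl⟩⟩
  rw [key _ (mul_mem ha hb), key a ha, key b hb]
  exact Subgroup.mul_mem_iff_of_index_two hi (a := ⟨a, ha⟩) (b := ⟨b, hb⟩)

/-- The indicator of the translates lying outside `M`. -/
noncomputable def psi (w : T) (t : T) : Prop := t * w * t⁻¹ ∉ D.M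

omit D in
theorem conj_mem_W {w : T} (hw : w ∈ cW T) (t : T) : t * w * t⁻¹ ∈ cW T :=
  Subgroup.Normal.conj_mem inferInstance w hw t

theorem mem_phi_of_forall {w : T} (hw : w ∈ cW T) (hall : ∀ t, t * w * t⁻¹ ∈ D.M) :
    w ∈ Z D.k := by
  have hle : D.M.normalCore ≤ Z D.k := by
    by_contra hle
    obtain ⟨x, hxK, hx, hx'⟩ := exists_mem_succ D.hyp.hT D.M.normalCore hle
    have hk := D.hk
    rcases idx2 (Subgroup.upperCentralSeries_mono T D.k.le_succ)
      (by rw [D.hyp.card_Z (by omega), D.hyp.card_Z (by omega), pow_succ']) hx hx' D.n_spec.2.1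
      with h1 | h1
    · exact D.n_spec.2.2 h1
    · have := D.M.mul_mem (Subgroup.normalCore_le _ hxK) (D.phi_le_M h1)
      rw [mul_inv_cancel_left] at this
      exact D.n_not_mem_M this
  exact hle hall

theorem psi_congr {w u : T} (hw : w ∈ cW T) (hu : u ∈ cW T) (t : T) :
    D.psi w (t * u) ↔ D.psi w t := by
  unfold psi
  have h1 : t * u * w * (t * u)⁻¹ = (t * ⁅u, w⁆ * t⁻¹) * (t * w * t⁻¹) := by
    simp [commutatorElement_def]; group
  have h2 : t * ⁅u, w⁆ * t⁻¹ ∈ D.M :=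
    D.phi_le_M (Subgroup.Normal.conj_mem inferInstance _ (D.comm_mem_phi hu hw) t)
  rw [h1, Subgroup.mul_mem_cancel_left _ h2]

open Classical in
theorem card_W_le : Nat.card ↥(cW T) ≤ 2 ^ (cW T).index * 2 ^ D.k := by
  have hk := D.hk
  have e : Nat.card ↥(frattini ↥(cW T)) = 2 ^ D.k := by
    rw [← D.hyp.card_Z (show D.k ≤ 4 by omega), ← D.hphi,
      Subgroup.card_map_of_injective (cW T).subtype_injective]
  rw [← Subgroup.index_mul_card (frattini ↥(cW T)), e]
  refine Nat.mul_le_mul_right _ ?_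
  rw [Subgroup.index_eq_card, Subgroup.index_eq_card]
  have hi : Function.Injective fun (a : ↥(cW T) ⧸ frattini ↥(cW T)) (q : T ⧸ cW T) =>
      decide (D.psi (a.out : T) q.out) := by
    intro a b hab
    have hab' : ∀ t, D.psi (a.out : T) t ↔ D.psi (b.out : T) t := by
      intro t
      obtain ⟨u, hu⟩ := QuotientGroup.mk_out_eq_mul (cW T) t
      have h1 := congrFun hab (QuotientGroup.mk t)
      simp only [decide_eq_decide] at h1
      rwa [hu, D.psi_congr a.out.2 u.2, D.psi_congr b.out.2 u.2] at h1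
    rw [← a.out_eq', ← b.out_eq', QuotientGroup.eq]
    have hm : ((a.out⁻¹ * b.out : ↥(cW T)) : T) ∈ Z D.k := by
      refine D.mem_phi_of_forall (a.out⁻¹ * b.out).2 fun t => ?_
      have h1 : D.psi (a.out : T) t ↔ D.psi (b.out : T) t := hab' t
      unfold psi at h1
      rw [show t * ((a.out⁻¹ * b.out : ↥(cW T)) : T) * t⁻¹ =
        (t * (a.out : T) * t⁻¹)⁻¹ * (t * (b.out : T) * t⁻¹) by simp [mul_assoc]]
      rw [D.mul_mem_M (inv_mem (conj_mem_W a.out.2 t)) (conj_mem_W b.out.2 t), inv_mem_iff]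
      exact not_iff_not.1 h1
    rw [← D.hphi] at hm
    obtain ⟨y, hy, hyx⟩ := hm
    rwa [show y = a.out⁻¹ * b.out from Subtype.ext hyx] at hy
  refine (Nat.card_le_card_of_injective _ hi).trans_eq ?_
  rw [Nat.card_fun]
  simp

theorem counts : D.k = 3 ∧ (cW T).index = 8 ∧ Nat.card ↥(cW T) = 2 ^ 11 ∧
    Nat.card T = 2 ^ 14 := by
  have h1 := D.card_W_le
  have h2 := Subgroup.card_mul_index (cW T)
  have h3 := D.index_W_le
  have h4 := D.hyp.ha
  have hk := D.hk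
  obtain ⟨i, hi⟩ := D.hyp.hT.index (cW T)
  rw [hi] at h1 h2 h3 ⊢
  have hi3 : i ≤ 3 := by
    by_contra hc
    have : 2 ^ 4 ≤ 2 ^ i := Nat.pow_le_pow_right (by omega) (by omega)
    omega
  generalize hj : D.k = j at h1 hk ⊢
  interval_cases i <;> interval_cases j <;> simp only [Nat.reducePow, Nat.reduceMul] at * <;>
    first | omega | exact ⟨by trivial, by trivial, by omega, by omega⟩

end Data

end Cfsg.Agent.H76.Rud
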