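import Mathlib
import Cfsg.Agent.H76.RudvalisType

/-!
The regular module inside a two-group of Rudvalis type: coordinates, the commutator form, and the
fact that no fixed vector of the module commutes with all of `W` modulo the centre of `T`.
-/

set_option autoImplicit false
set_option linter.unusedSectionVars false

namespace Cfsg.Agent.H76.Rud

open scoped commutatorElement

variable {T : Type*} [Group T] [Finite T]

local notation "Z" => Subgroup.upperCentralSeries T

/-- Exclusive or on triples. -/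
def addE (a b : E) : E := (xor a.1 b.1, xor a.2.1 b.2.1, xor a.2.2 b.2.2)

/-- The numbering of the dihedral group of order eight by triples. -/
def toDih : E → DihedralGroup 4
  | (false, false, false) => .r 0
  | (true, false, true) => .r 1
  | (false, true, false) => .r 2
  | (true, true, true) => .r 3
  | (true, false, false) => .sr 0
  | (false, true, true) => .sr 1
  | (true, true, false) => .sr 2
  | (false, false, true) => .sr 3

theorem toDih_mul : ∀ g h : E, toDih (mulE g h) = toDih g * toDih h := by decide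

theorem toDih_inj : ∀ g h : E, toDih g = toDih h → g = h := by decide

theorem toDih_surj : ∀ x : DihedralGroup 4, ∃ g : E, toDih g = x := by
  intro x
  rcases x with i | i <;> revert i <;> decide

namespace Data

variable (D : Data T)
include D

theorem phi_eq : Z D.k = Z 3 := by rw [D.counts.1]

theorem Z3_le_W : Z 3 ≤ cW T := D.phi_eq ▸ D.phi_le_W

theorem Z3_le_M : Z 3 ≤ D.M := D.phi_eq ▸ D.phi_le_M

theorem comm_Z3_W {z w : T} (hz : z ∈ Z 3) (hw : w ∈ cW T) : z * w = w * z :=
  Subgroup.mem_centralizer_iff.1 hw z hz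

theorem comm_mem {x y : T} (hx : x ∈ cW T) (hy : y ∈ cW T) : ⁅x, y⁆ ∈ Z 3 :=
  D.phi_eq ▸ D.comm_mem_phi hx hy

theorem sq_mem {x : T} (hx : x ∈ cW T) : x * x ∈ Z 3 := D.phi_eq ▸ D.sq_mem_phi hx

/-- The commutator is multiplicative in the first variable on `W`. -/
theorem comm_mul_left {x y z : T} (hx : x ∈ cW T) (hy : y ∈ cW T) (hz : z ∈ cW T) :
    ⁅x * y, z⁆ = ⁅y, z⁆ * ⁅x, z⁆ := by
  have h := D.comm_Z3_W (D.comm_mem hy hz) hx
  calc ⁅x * y, z⁆ = x * ⁅y, z⁆ * x⁻¹ * ⁅x, z⁆ := by simp only [commutatorElement_def]; group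
    _ = ⁅y, z⁆ * ⁅x, z⁆ := by rw [← h, mul_inv_cancel_right]

theorem comm_inv {x z : T} (hx : x ∈ cW T) (hz : z ∈ cW T) : ⁅x⁻¹, z⁆ = ⁅x, z⁆⁻¹ := by
  have h := D.comm_mul_left (inv_mem hx) hx hz
  rw [inv_mul_cancel, commutatorElement_one_left] at h
  exact eq_inv_of_mul_eq_one_right h.symm

theorem commutator_le_Z3 : (commutator ↥(cW T)).map (cW T).subtype ≤ Z 3 := by
  rw [Subgroup.map_le_iff_le_comap, commutator_def, Subgroup.commutator_le]
  rintro ⟨a, ha⟩ - ⟨b, hb⟩ -
  exact D.comm_mem ha hb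

theorem center_contains {z : T} (hz : z ∈ Z 3) :
    (⟨z, D.Z3_le_W hz⟩ : ↥(cW T)) ∈ Subgroup.center ↥(cW T) :=
  Subgroup.mem_center_iff.2 fun w => Subtype.ext (D.comm_Z3_W hz w.2).symm

theorem derived : (commutator ↥(cW T)).map (cW T).subtype = Z 3 := by
  haveI : ((commutator ↥(cW T)).map (cW T).subtype).Normal := inferInstance
  obtain ⟨j, hj, hje⟩ := D.hyp.eq_Z _ ((Subgroup.card_le_of_le D.commutator_le_Z3).trans
    (by rw [D.hyp.card_Z (by omega)]; rfl))
  rcases Nat.lt_or_ge j 3 with hlt | hge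
  swap
  · rw [hje, show j = 3 by omega]
  exfalso
  set H := cW T with hH
  -- some square lies outside the derived subgroup
  obtain ⟨w, hw⟩ : ∃ w : ↥H, w * w ∉ commutator ↥H := by
    by_contra hc
    push Not at hc
    have hle : frattini ↥H ≤ commutator ↥H :=
      Cfsg.Agent.H24.frattini_le_of (p := 2) (commutator ↥H) le_rfl
        fun x => by rw [pow_two]; exact hc x
    have h1 := Subgroup.map_mono (f := H.subtype) hle
    rw [D.hphi, D.phi_eq, hje] at h1
    have h2 := Subgroup.card_le_of_le h1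
    rw [D.hyp.card_Z (by omega), D.hyp.card_Z (by omega)] at h2
    have := (Nat.pow_le_pow_iff_right (by omega : 1 < 2)).1 h2
    omega
  obtain ⟨B, hB⟩ := Set.Finite.exists_maximal
    (s := {B : Subgroup ↥H | commutator ↥H ≤ B ∧ w * w ∉ B}) (Set.toFinite _)
    ⟨_, le_rfl, hw⟩
  haveI hBn : B.Normal := Subgroup.Normal.of_commutator_le ↥H hB.1.1
  have hmin : ∀ x : ↥H, x ∉ B → x * x ∈ B → (x * (w * w)⁻¹ ∈ B) := by
    intro x hx hx2
    have hlt : B < B ⊔ Subgroup.zpowers x :=
      lt_of_le_of_ne le_sup_left fun he => hx (he ▸ Subgroup.mem_sup_right (Subgroup.mem_zpowers x))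
    have hmem : w * w ∈ B ⊔ Subgroup.zpowers x := by
      by_contra hc
      exact hlt.ne (le_antisymm hlt.le (hB.2 ⟨hB.1.1.trans le_sup_left, hc⟩ hlt.le))
    obtain ⟨b, hb, y, hy, hby⟩ := Subgroup.mem_sup_of_normal_left.1 hmem
    obtain ⟨i, rfl⟩ := Subgroup.mem_zpowers_iff.1 hy
    rcases Int.even_or_odd i with ⟨m, rfl⟩ | ⟨m, rfl⟩
    · refine absurd ?_ hB.1.2
      rw [← hby, ← two_mul, zpow_mul, zpow_two]
      exact B.mul_mem hb (B.zpow_mem hx2 m)
    · rw [← hby, mul_inv_rev, ← mul_assoc, zpow_add, zpow_mul, zpow_two, zpow_one, mul_inv_rev,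
        mul_inv_cancel_left]
      exact B.mul_mem (B.inv_mem (B.zpow_mem hx2 m)) (B.inv_mem hb)
  -- the squaring map of the quotient has small kernel and small image
  have hidx : B.index ≤ 16 := by
    rw [Subgroup.index_eq_card]
    have hcomm : ∀ a b : ↥H ⧸ B, a * b = b * a := by
      intro a b
      induction a using QuotientGroup.induction_on with
      | _ a =>
      induction b using QuotientGroup.induction_on with
      | _ b =>
      rw [← commutatorElement_eq_one_iff_mul_comm, ← QuotientGroup.mk'_apply,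
        ← QuotientGroup.mk'_apply, ← map_commutatorElement, QuotientGroup.mk'_apply,
        QuotientGroup.eq_one_iff]
      exact hB.1.1 (Subgroup.commutator_mem_commutator (Subgroup.mem_top _) (Subgroup.mem_top _))
    let sqh : ↥H ⧸ B →* ↥H ⧸ B :=
      { toFun := fun a => a * a
        map_one' := one_mul 1
        map_mul' := fun a b => by rw [mul_assoc, ← mul_assoc b, hcomm b a, mul_assoc a, ← mul_assoc] }
    have hker : Nat.card ↥sqh.ker ≤ 2 := by
      have hk : ∀ a ∈ sqh.ker, a = 1 ∨ a = QuotientGroup.mk' B (w * w) := by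
        intro a ha
        induction a using QuotientGroup.induction_on with
        | _ a =>
        by_cases h1 : a ∈ B
        · exact Or.inl ((QuotientGroup.eq_one_iff a).2 h1)
        · refine Or.inr ?_
          have h2 : a * a ∈ B := (QuotientGroup.eq_one_iff _).1 ha
          have h3 := hmin a h1 h2
          rw [← (QuotientGroup.eq_one_iff _ (N := B))] at h3
          rw [QuotientGroup.mk_mul, QuotientGroup.mk_inv, mul_inv_eq_one] at h3
          exact h3
      classical
      have hi : Function.Injective fun a : ↥sqh.ker => decide ((a : ↥H ⧸ B) = 1) := by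
        intro a a' h
        simp only [decide_eq_decide] at h
        rcases hk _ a.2 with h1 | h1
        · exact Subtype.ext (h1.trans (h.1 h1).symm)
        · rcases hk _ a'.2 with h2 | h2
          · exact Subtype.ext ((h.2 h2).trans h2.symm)
          · exact Subtype.ext (h1.trans h2.symm)
      exact (Nat.card_le_card_of_injective _ hi).trans_eq (by simp)
    have hran : Nat.card ↥sqh.range ≤ 8 := by
      have hle : sqh.range ≤ (frattini ↥H).map (QuotientGroup.mk' B) := by
        rintro _ ⟨a, rfl⟩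
        induction a using QuotientGroup.induction_on with
        | _ a =>
        have hm : a * a ∈ frattini ↥H := by
          rw [← pow_two]
          exact Cfsg.Agent.H24.pow_mem_frattini (D.hyp.hT.to_subgroup H) a
        exact ⟨a * a, hm, rfl⟩
      exact (Subgroup.card_le_of_le hle).trans ((Nat.le_of_dvd Nat.card_pos
        (Subgroup.card_map_dvd _ _)).trans D.hyp.hc)
    rw [Subgroup.card_eq_card_quotient_mul_card_subgroup sqh.ker,
      Nat.card_congr (QuotientGroup.quotientKerEquivRange sqh).toEquiv]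
    nlinarith
  have h16 : frattini ↥H ≤ B := D.hyp.hd B hidx
  refine hB.1.2 (h16 ?_)
  rw [← pow_two]
  exact Cfsg.Agent.H24.pow_mem_frattini (D.hyp.hT.to_subgroup H) w

theorem elem {z : T} (hz : z ∈ Z 3) : z * z = 1 := by
  have hzd := hz
  rw [← D.derived] at hzd
  obtain ⟨x, hx, rfl⟩ := hzd
  rw [commutator_eq_closure] at hx
  induction hx using Subgroup.closure_induction with
  | mem y hy =>
    obtain ⟨a, b, rfl⟩ := mem_commutatorSet_iff.1 hy
    change ⁅(a : T), (b : T)⁆ * ⁅(a : T), (b : T)⁆ = 1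
    rw [← D.comm_mul_left a.2 a.2 b.2, commutatorElement_eq_one_iff_mul_comm]
    exact D.comm_Z3_W (D.sq_mem a.2) b.2
  | one => simp
  | mul y y' hy hy' ih ih' =>
    have hy3 : ((y : ↥(cW T)) : T) ∈ Z 3 := D.derived ▸ ⟨y, by rwa [commutator_eq_closure], rfl⟩
    have ha := ih hy3
    have hb' : ((y' : ↥(cW T)) : T) ∈ Z 3 := D.derived ▸ ⟨y', by rwa [commutator_eq_closure], rfl⟩
    have hb := ih' hb'
    change ((y : T) * (y' : T)) * ((y : T) * (y' : T)) = 1
    rw [Commute.mul_mul_mul_comm (D.comm_Z3_W hb' y.2), show ((y : T) * y) = 1 from ha,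
      show ((y' : T) * y') = 1 from hb, one_mul]
  | inv y hy ih =>
    have ha := ih (D.derived ▸ ⟨y, by rwa [commutator_eq_closure], rfl⟩)
    change ((y : T))⁻¹ * ((y : T))⁻¹ = 1
    rw [← mul_inv_rev, show ((y : T) * y) = 1 from ha, inv_one]

theorem comm_Z3 {x y : T} (hx : x ∈ Z 3) (hy : y ∈ Z 3) : x * y = y * x :=
  D.comm_Z3_W hx (D.Z3_le_W hy)

/-- Coordinates on the third centre. -/
def zc (e : E) : T := cond e.1 D.z0 1 * cond e.2.1 D.z1 1 * cond e.2.2 D.z2 1

omit [Finite T] in
theorem z0_mem : D.z0 ∈ Z 3 := Subgroup.upperCentralSeries_mono T (show 1 ≤ 3 by omega) D.hz0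

omit [Finite T] in
theorem z1_mem : D.z1 ∈ Z 3 := Subgroup.upperCentralSeries_mono T (show 2 ≤ 3 by omega) D.hz1

omit [Finite T] in
theorem cond_mem {S : Subgroup T} {z : T} (hz : z ∈ S) (i : Bool) : cond i z 1 ∈ S := by
  cases i <;> simp [hz, S.one_mem]

theorem zc_mem (e : E) : D.zc e ∈ Z 3 :=
  mul_mem (mul_mem (D.cond_mem D.z0_mem _) (D.cond_mem D.z1_mem _)) (D.cond_mem D.hz2 _)

theorem cond_xor {z : T} (hz : z ∈ Z 3) (i j : Bool) :
    cond (xor i j) z 1 = cond i z 1 * cond j z 1 := by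
  cases i <;> cases j <;> simp [D.elem hz]

theorem zc_add (a b : E) : D.zc (addE a b) = D.zc a * D.zc b := by
  simp only [zc, addE, D.cond_xor D.z0_mem, D.cond_xor D.z1_mem, D.cond_xor D.hz2]
  rw [Commute.mul_mul_mul_comm (D.comm_Z3 (D.cond_mem D.z0_mem _) (D.cond_mem D.z1_mem _)),
    Commute.mul_mul_mul_comm (D.comm_Z3 (mul_mem (D.cond_mem D.z0_mem _) (D.cond_mem D.z1_mem _))
      (D.cond_mem D.hz2 _))]

theorem zc_eq_one {e : E} (he : D.zc e = 1) : e = (false, false, false) := by
  obtain ⟨i, j, k⟩ := e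
  have h12 : cond i D.z0 1 * cond j D.z1 1 ∈ Z 2 :=
    mul_mem (D.cond_mem (Subgroup.upperCentralSeries_mono T (show 1 ≤ 2 by omega) D.hz0) _)
      (D.cond_mem D.hz1 _)
  cases k with
  | true =>
    refine absurd ?_ D.hz2'
    simp only [zc, cond_true] at he
    rw [eq_inv_of_mul_eq_one_right he]
    exact inv_mem h12
  | false =>
    cases j with
    | true =>
      refine absurd ?_ D.hz1'
      simp only [zc, cond_true, cond_false, mul_one] at he
      rw [eq_inv_of_mul_eq_one_right he]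
      exact inv_mem (D.cond_mem D.hz0 _)
    | false =>
      cases i with
      | true => exact absurd (by simpa [zc] using he : D.z0 = 1) (by simpa using D.hz0')
      | false => rfl

theorem zc_inj : Function.Injective D.zc := by
  intro a b h
  have h1 : D.zc (addE a b) = 1 := by rw [D.zc_add, h, D.elem (D.zc_mem b)]
  have key : ∀ a b : E, addE a b = (false, false, false) → a = b := by decide
  exact key _ _ (D.zc_eq_one h1)

theorem zc_surj_two {z : T} (hz : z ∈ Z 2) : ∃ i j, z = D.zc (i, j, false) := by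
  have one : ∀ x ∈ Z 1, ∃ i, x = cond i D.z0 1 := by
    intro x hx
    rcases D.mem_Z1 hx with h | h
    · exact ⟨false, h⟩
    · exact ⟨true, h⟩
  rcases D.mem_Z2 hz with h | h
  · obtain ⟨i, hi⟩ := one _ h
    exact ⟨i, false, by simp [zc, hi]⟩
  · obtain ⟨i, hi⟩ := one _ h
    refine ⟨i, true, ?_⟩
    simp only [zc, cond_true, cond_false, mul_one]
    rw [← hi, D.comm_Z3 (Subgroup.upperCentralSeries_mono T (show 1 ≤ 3 by omega) h) D.z1_mem,
      mul_inv_cancel_left]

theorem zc_surj {z : T} (hz : z ∈ Z 3) : ∃ e, z = D.zc e := by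
  rcases D.mem_Z3 hz with h | h
  · obtain ⟨i, j, hij⟩ := D.zc_surj_two h
    exact ⟨_, hij⟩
  · obtain ⟨i, j, hij⟩ := D.zc_surj_two h
    refine ⟨(i, j, true), ?_⟩
    have h2 : D.zc (i, j, false) = cond i D.z0 1 * cond j D.z1 1 := by simp [zc]
    rw [show D.zc (i, j, true) = cond i D.z0 1 * cond j D.z1 1 * D.z2 by simp [zc], ← h2, ← hij,
      D.comm_Z3 (Subgroup.upperCentralSeries_mono T (show 2 ≤ 3 by omega) h) D.hz2,
      mul_inv_cancel_left]

/-- The coordinates of an element of the third centre. -/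
noncomputable def pr (z : T) : E := Function.invFun D.zc z

theorem pr_zc (e : E) : D.pr (D.zc e) = e := Function.leftInverse_invFun D.zc_inj e

theorem zc_pr {z : T} (hz : z ∈ Z 3) : D.zc (D.pr z) = z := by
  obtain ⟨e, rfl⟩ := D.zc_surj hz
  rw [D.pr_zc]

theorem pr_mul {a b : T} (ha : a ∈ Z 3) (hb : b ∈ Z 3) :
    D.pr (a * b) = addE (D.pr a) (D.pr b) := by
  conv_lhs => rw [← D.zc_pr ha, ← D.zc_pr hb, ← D.zc_add]
  exact D.pr_zc _

theorem pr_one : D.pr 1 = (false, false, false) := by
  have h : D.zc (false, false, false) = 1 := by simp [zc]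
  rw [← h, D.pr_zc]

theorem pr_z1 : D.pr D.z1 = (false, true, false) := by
  have h : D.zc (false, true, false) = D.z1 := by simp [zc]
  conv_lhs => rw [← h]
  exact D.pr_zc _

theorem pr_z2 : D.pr D.z2 = (false, false, true) := by
  have h : D.zc (false, false, true) = D.z2 := by simp [zc]
  conv_lhs => rw [← h]
  exact D.pr_zc _

/-- The action of an element of `T` on the third centre. -/
noncomputable def kap (t : T) : E :=
  ((D.pr (t * D.z1 * t⁻¹)).1, (D.pr (t * D.z2 * t⁻¹)).1, (D.pr (t * D.z2 * t⁻¹)).2.1)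

theorem conj_z1 (t : T) : t * D.z1 * t⁻¹ = D.zc ((D.kap t).1, true, false) := by
  have h : t * D.z1 * t⁻¹ = ⁅t, D.z1⁆ * D.z1 := by simp [commutatorElement_def]
  obtain ⟨i, hi⟩ : ∃ i, t * D.z1 * t⁻¹ = D.zc (i, true, false) := by
    rcases D.mem_Z1 (D.comm_z1 t) with h1 | h1
    · exact ⟨false, by simp [h, h1, zc]⟩
    · exact ⟨true, by simp [h, h1, zc]⟩
  rw [hi]
  simp only [kap, hi, D.pr_zc]

theorem conj_z2 (t : T) : t * D.z2 * t⁻¹ = D.zc ((D.kap t).2.1, (D.kap t).2.2, true) := by
  have h : t * D.z2 * t⁻¹ = ⁅t, D.z2⁆ * D.z2 := by simp [commutatorElement_def]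
  obtain ⟨i, j, hij⟩ := D.zc_surj_two (D.comm_z2 t)
  have h2 : t * D.z2 * t⁻¹ = D.zc (i, j, true) := by rw [h, hij]; simp [zc]
  rw [h2]
  simp only [kap, h2, D.pr_zc]

theorem conj_zc (t : T) (e : E) : t * D.zc e * t⁻¹ = D.zc (act3 (D.kap t) e) := by
  have hc : ∀ (i : Bool) (z : T) (X : E), t * z * t⁻¹ = D.zc X →
      t * cond i z 1 * t⁻¹ = D.zc (cond i X (false, false, false)) := by
    intro i z X hX
    cases i <;> simp [hX, zc]
  have h0 : t * D.z0 * t⁻¹ = D.zc (true, false, false) := by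
    rw [conj_fix D D.hz0]; simp [zc]
  obtain ⟨i, j, k⟩ := e
  have h : t * D.zc (i, j, k) * t⁻¹ =
      t * cond i D.z0 1 * t⁻¹ * (t * cond j D.z1 1 * t⁻¹) * (t * cond k D.z2 1 * t⁻¹) := by
    simp [zc, mul_assoc]
  rw [h, hc i _ _ h0, hc j _ _ (D.conj_z1 t), hc k _ _ (D.conj_z2 t), ← D.zc_add, ← D.zc_add]
  generalize D.kap t = g
  congr 1
  clear h
  revert g i j k
  decide

theorem pr_conj (t : T) {z : T} (hz : z ∈ Z 3) :
    D.pr (t * z * t⁻¹) = act3 (D.kap t) (D.pr z) := by
  conv_lhs => rw [← D.zc_pr hz, D.conj_zc]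
  exact D.pr_zc _

theorem kap_mul (t s : T) : D.kap (t * s) = mulE (D.kap t) (D.kap s) := by
  have h : ∀ z : T, t * s * z * (t * s)⁻¹ = t * (s * z * s⁻¹) * t⁻¹ := fun z => by simp [mul_assoc]
  rw [show D.kap (t * s) = ((D.pr (t * s * D.z1 * (t * s)⁻¹)).1,
    (D.pr (t * s * D.z2 * (t * s)⁻¹)).1, (D.pr (t * s * D.z2 * (t * s)⁻¹)).2.1) from rfl,
    h, h, D.conj_z1 s, D.conj_z2 s, D.conj_zc, D.conj_zc, D.pr_zc, D.pr_zc]
  generalize D.kap t = g
  generalize D.kap s = g'
  revert g g'
  decide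

theorem kap_of_mem {u : T} (hu : u ∈ cW T) : D.kap u = (false, false, false) := by
  have h1 : ∀ z ∈ Z 3, u * z * u⁻¹ = z := fun z hz => by
    rw [← D.comm_Z3_W hz hu, mul_inv_cancel_right]
  simp only [kap, h1 _ D.z1_mem, h1 _ D.hz2, D.pr_z1, D.pr_z2]

theorem inv_mul_mem_of_kap {t s : T} (h : D.kap t = D.kap s) : s⁻¹ * t ∈ cW T := by
  refine D.inv_mul_mem_W ?_ ?_
  · simp only [commutatorElement_def, mul_left_inj]
    rw [D.conj_z1, D.conj_z1, h]
  · simp only [commutatorElement_def, mul_left_inj]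
    rw [D.conj_z2, D.conj_z2, h]

theorem kap_surj : Function.Surjective D.kap := by
  have hi : Function.Injective fun q : T ⧸ cW T => D.kap q.out := by
    intro q r hqr
    rw [← q.out_eq', ← r.out_eq']
    exact (QuotientGroup.eq.2 (D.inv_mul_mem_of_kap hqr)).symm
  have hb := hi.bijective_of_nat_card_le (by
    rw [← Subgroup.index_eq_card, D.counts.2.1]; simp [E])
  intro g
  obtain ⟨q, hq⟩ := hb.2 g
  exact ⟨q.out, hq⟩

theorem quotient_dihedral [(cW T).Normal] : Nonempty (T ⧸ cW T ≃* DihedralGroup 4) := by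
  let f : T →* DihedralGroup 4 :=
    MonoidHom.mk' (fun t => toDih (D.kap t)) fun t s => by rw [D.kap_mul, toDih_mul]
  have hf : Function.Surjective f := fun x => by
    obtain ⟨g, rfl⟩ := toDih_surj x
    obtain ⟨t, rfl⟩ := D.kap_surj g
    exact ⟨t, rfl⟩
  have hk : f.ker = cW T := by
    ext t
    refine ⟨fun ht => ?_, fun ht => ?_⟩
    · have h1 : toDih (D.kap t) = toDih (D.kap 1) := by
        rw [D.kap_of_mem (one_mem _)]
        exact ht
      simpa using D.inv_mul_mem_of_kap (toDih_inj _ _ h1)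
    · change toDih (D.kap t) = 1
      rw [D.kap_of_mem ht]
      rfl
  exact ⟨(QuotientGroup.quotientMulEquivOfEq hk.symm).trans
    (QuotientGroup.quotientKerEquivOfSurjective f hf)⟩

end Data

end Cfsg.Agent.H76.Rud
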