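import Mathlib
import Cfsg.Agent.H76.RudvalisModule

/-!
The commutator form on the regular module and the fact that a fixed vector does not commute with
`W` modulo the centre of `T`.
-/

set_option autoImplicit false
set_option linter.unusedSectionVars false

namespace Cfsg.Agent.H76.Rud

open scoped commutatorElement

variable {T : Type*} [Group T] [Finite T]

local notation "Z" => Subgroup.upperCentralSeries T

/-- Exclusive or on pairs. -/
def addB (a b : Bool × Bool) : Bool × Bool := (xor a.1 b.1, xor a.2 b.2)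

/-- All triples. -/
def allE : List E :=
  [(false, false, false), (true, false, false), (false, true, false), (true, true, false),
    (false, false, true), (true, false, true), (false, true, true), (true, true, true)]

/-- The characteristic function of a product of translates. -/
def sumChi (l : List E) (h : E) : Bool :=
  l.foldr (fun g s => xor (decide (mulE h g = (false, false, false))) s) false

theorem sumChi_allE : ∀ h, sumChi allE h = true := by decide

theorem sumChi_wit : ∀ l ∈ wit, ∀ h, sumChi l h = chi l (invE h) := by decide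

theorem invE_invE : ∀ g, invE (invE g) = g := by decide

theorem mulE_invE : ∀ g, mulE g (invE g) = (false, false, false) := by decide

theorem invE_mulE : ∀ g, mulE (invE g) g = (false, false, false) := by decide

theorem eq_invE : ∀ g h, mulE g h = (false, false, false) → h = invE g := by decide

theorem mulE_zero : ∀ g, mulE g (false, false, false) = g := by decide

theorem act3_zero : ∀ z, act3 (false, false, false) z = z := by decide

theorem act3_snd : ∀ g z, (act3 g z).2 = act g z.2 := by decide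

theorem addE_snd : ∀ a b : E, (addE a b).2 = addB a.2 b.2 := by decide

theorem act3_fix : ∀ g z, act3 g z = z → act3 g (false, z.2.1, z.2.2) = (false, z.2.1, z.2.2) := by
  decide

namespace Data

variable (D : Data T)
include D

/-- A representative of a given action. -/
noncomputable def rep (g : E) : T := Function.surjInv D.kap_surj g

theorem kap_rep (g : E) : D.kap (D.rep g) = g := Function.surjInv_eq D.kap_surj g

theorem kap_rep_inv (g : E) : D.kap (D.rep g)⁻¹ = invE g := by
  have h := D.kap_mul (D.rep g) (D.rep g)⁻¹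
  rw [mul_inv_cancel, D.kap_of_mem (one_mem _), D.kap_rep] at h
  exact eq_invE _ _ h.symm

theorem rep_mul (t : T) (g : E) :
    ∃ u ∈ cW T, t * D.rep g = D.rep (mulE (D.kap t) g) * u := by
  refine ⟨(D.rep (mulE (D.kap t) g))⁻¹ * (t * D.rep g), D.inv_mul_mem_of_kap ?_, ?_⟩
  · rw [D.kap_mul, D.kap_rep, D.kap_rep]
  · rw [mul_inv_cancel_left]

open Classical in
/-- The indicator of the translates of an element of `W` outside `M`. -/
noncomputable def ind (w : T) (g : E) : Bool := decide (D.psi w (D.rep g))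

theorem psi_rep {w : T} (hw : w ∈ cW T) (t : T) :
    D.psi w t ↔ D.psi w (D.rep (D.kap t)) := by
  have hu : (D.rep (D.kap t))⁻¹ * t ∈ cW T := D.inv_mul_mem_of_kap (D.kap_rep _).symm
  conv_lhs => rw [show t = D.rep (D.kap t) * ((D.rep (D.kap t))⁻¹ * t) from
    (mul_inv_cancel_left _ _).symm]
  exact D.psi_congr hw hu _

theorem ind_mul {x y : T} (hx : x ∈ cW T) (hy : y ∈ cW T) (g : E) :
    D.ind (x * y) g = xor (D.ind x g) (D.ind y g) := by
  classical
  have h : D.rep g * (x * y) * (D.rep g)⁻¹ =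
      D.rep g * x * (D.rep g)⁻¹ * (D.rep g * y * (D.rep g)⁻¹) := by simp [mul_assoc]
  unfold ind psi
  rw [h, D.mul_mem_M (conj_mem_W hx _) (conj_mem_W hy _)]
  by_cases h1 : D.rep g * x * (D.rep g)⁻¹ ∈ D.M <;>
    by_cases h2 : D.rep g * y * (D.rep g)⁻¹ ∈ D.M <;> simp [h1, h2]

theorem ind_Z3 {z : T} (hz : z ∈ Z 3) (g : E) : D.ind z g = false := by
  unfold ind psi
  rw [decide_eq_false_iff_not, not_not]
  exact D.Z3_le_M (Subgroup.Normal.conj_mem inferInstance z hz _)

theorem ind_inv {x : T} (hx : x ∈ cW T) (g : E) : D.ind x⁻¹ g = D.ind x g := by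
  have h := D.ind_mul hx (inv_mem hx) g
  rw [mul_inv_cancel, D.ind_Z3 (one_mem _)] at h
  revert h
  generalize D.ind x g = a
  generalize D.ind x⁻¹ g = b
  revert a b
  decide

theorem mem_Z3_of_ind {w : T} (hw : w ∈ cW T) (h : ∀ g, D.ind w g = false) : w ∈ Z 3 := by
  rw [← D.phi_eq]
  refine D.mem_phi_of_forall hw fun t => ?_
  by_contra hc
  have h1 := (D.psi_rep hw t).1 hc
  have h2 := h (D.kap t)
  unfold ind at h2
  simp [h1] at h2

theorem ind_surj (f : E → Bool) : ∃ w ∈ cW T, D.ind w = f := by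
  have hcard : Nat.card (↥(cW T) ⧸ (Z 3).subgroupOf (cW T)) = 256 := by
    have h := Subgroup.card_mul_index ((Z 3).subgroupOf (cW T))
    rw [Nat.card_congr (Subgroup.subgroupOfEquivOfLe D.Z3_le_W).toEquiv,
      D.hyp.card_Z (by omega), D.counts.2.2.1, Subgroup.index_eq_card] at h
    omega
  have hi : Function.Injective fun q : ↥(cW T) ⧸ (Z 3).subgroupOf (cW T) =>
      D.ind (q.out : T) := by
    intro a b hab
    rw [← a.out_eq', ← b.out_eq', QuotientGroup.eq]
    refine D.mem_Z3_of_ind (a.out⁻¹ * b.out).2 fun g => ?_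
    rw [Subgroup.coe_subtype, Subgroup.coe_mul, Subgroup.coe_inv, D.ind_mul (inv_mem a.out.2) b.out.2,
      D.ind_inv a.out.2]
    have := congrFun hab g
    simp only at this
    rw [this, Bool.xor_self]
  obtain ⟨q, hq⟩ := (hi.bijective_of_nat_card_le (by rw [hcard]; simp [E])).2 f
  exact ⟨_, q.out.2, hq⟩

/-- A generator of the regular module. -/
noncomputable def v : T := (D.ind_surj fun g => decide (g = (false, false, false))).choose

theorem v_spec : D.v ∈ cW T ∧ D.ind D.v = fun g => decide (g = (false, false, false)) :=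
  (D.ind_surj fun g => decide (g = (false, false, false))).choose_spec

/-- The translates of the generator. -/
noncomputable def cv (g : E) : T := D.rep g * D.v * (D.rep g)⁻¹

theorem cv_mem (g : E) : D.cv g ∈ cW T := conj_mem_W D.v_spec.1 _

theorem ind_cv (g h : E) : D.ind (D.cv g) h = decide (mulE h g = (false, false, false)) := by
  classical
  have h2 : D.psi (D.cv g) (D.rep h) ↔ D.psi D.v (D.rep h * D.rep g) := by
    unfold psi cv
    simp [mul_assoc]
  have h3 := D.psi_rep D.v_spec.1 (D.rep h * D.rep g)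
  rw [D.kap_mul, D.kap_rep, D.kap_rep] at h3
  have h4 := congrFun D.v_spec.2 (mulE h g)
  unfold ind at h4 ⊢
  rw [← h4]
  exact decide_eq_decide.2 (h2.trans h3)

theorem conj_cv (t : T) (g : E) :
    ∃ φ ∈ Z 3, t * D.cv g * t⁻¹ = φ * D.cv (mulE (D.kap t) g) := by
  obtain ⟨u, hu, hru⟩ := D.rep_mul t g
  set r := D.rep (mulE (D.kap t) g) with hr
  refine ⟨r * ⁅u, D.v⁆ * r⁻¹,
    Subgroup.Normal.conj_mem inferInstance _ (D.comm_mem hu D.v_spec.1) _, ?_⟩
  have h : t * D.cv g * t⁻¹ = t * D.rep g * D.v * (t * D.rep g)⁻¹ := by simp [cv, mul_assoc]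
  rw [h, hru]
  simp [cv, ← hr, commutatorElement_def, mul_assoc]

/-- The coordinates of a commutator. -/
noncomputable def beta (x y : T) : Bool × Bool := (D.pr ⁅x, y⁆).2

/-- The coordinates of a square. -/
noncomputable def q (x : T) : Bool × Bool := (D.pr (x * x)).2

theorem beta_left {x y z : T} (hx : x ∈ cW T) (hy : y ∈ cW T) (hz : z ∈ cW T) :
    D.beta (x * y) z = addB (D.beta x z) (D.beta y z) := by
  unfold beta
  rw [D.comm_mul_left hx hy hz, D.comm_Z3 (D.comm_mem hy hz) (D.comm_mem hx hz),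
    D.pr_mul (D.comm_mem hx hz) (D.comm_mem hy hz), addE_snd]

theorem beta_comm {x y : T} (hx : x ∈ cW T) (hy : y ∈ cW T) : D.beta y x = D.beta x y := by
  have h : ⁅y, x⁆ = ⁅x, y⁆ := by
    rw [← commutatorElement_inv x y]
    exact inv_eq_of_mul_eq_one_right (D.elem (D.comm_mem hx hy))
  rw [beta, h, beta]

theorem beta_Z3 {z y : T} (hz : z ∈ Z 3) (hy : y ∈ cW T) : D.beta z y = (false, false) := by
  unfold beta
  rw [commutatorElement_eq_one_iff_mul_comm.2 (D.comm_Z3_W hz hy), D.pr_one]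

theorem q_mul {x y : T} (hx : x ∈ cW T) (hy : y ∈ cW T) :
    D.q (x * y) = addB (addB (D.q x) (D.q y)) (D.beta x y) := by
  have hxy : ⁅x⁻¹, y⁆ = ⁅x, y⁆ := by
    rw [D.comm_inv hx hy]
    exact inv_eq_of_mul_eq_one_right (D.elem (D.comm_mem hx hy))
  have hc := D.comm_Z3_W (D.comm_mem hx hy) (mul_mem hy hy)
  have h : x * y * (x * y) = x * x * (y * y) * ⁅x, y⁆ := by
    rw [mul_assoc (x * x), ← hc, ← hxy]
    simp only [commutatorElement_def]
    group
  unfold q beta
  rw [h, D.pr_mul (mul_mem (D.sq_mem hx) (D.sq_mem hy)) (D.comm_mem hx hy),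
    D.pr_mul (D.sq_mem hx) (D.sq_mem hy), addE_snd, addE_snd]

/-- The coordinates of the commutator of the generator with a translate. -/
noncomputable def G0 (d : E) : E := D.pr ⁅D.v, D.cv d⁆

theorem pr_comm_cv (g h : E) :
    D.pr ⁅D.cv g, D.cv h⁆ = act3 g (D.G0 (mulE (invE g) h)) := by
  obtain ⟨φ, hφ, he⟩ := D.conj_cv (D.rep g)⁻¹ h
  rw [D.kap_rep_inv, inv_inv] at he
  have hh : D.cv h = D.rep g * (φ * D.cv (mulE (invE g) h)) * (D.rep g)⁻¹ := by
    rw [← he]; simp [mul_assoc]
  have h1 : ⁅D.v, φ * D.cv (mulE (invE g) h)⁆ = ⁅D.v, D.cv (mulE (invE g) h)⁆ := by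
    have e : Commute D.v φ := (D.comm_Z3_W hφ D.v_spec.1).symm
    rw [commutatorElement_mul_right_eq_mul_conj, commutatorElement_eq_one_iff_mul_comm.2 e.eq,
      one_mul]
    rw [D.comm_Z3 hφ (D.comm_mem D.v_spec.1 (D.cv_mem _)), mul_inv_cancel_right]
  have h2 : ⁅D.cv g, D.cv h⁆ = D.rep g * ⁅D.v, φ * D.cv (mulE (invE g) h)⁆ * (D.rep g)⁻¹ := by
    rw [hh]
    simp [cv, commutatorElement_def, mul_assoc]
  rw [h2, h1, D.pr_conj _ (D.comm_mem D.v_spec.1 (D.cv_mem _)), D.kap_rep]
  rfl

theorem cv_zero : ∃ φ ∈ Z 3, D.cv (false, false, false) = φ * D.v := by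
  have hu : D.rep (false, false, false) ∈ cW T := by
    simpa using D.inv_mul_mem_of_kap (t := D.rep (false, false, false)) (s := 1)
      (by rw [D.kap_rep, D.kap_of_mem (one_mem _)])
  exact ⟨⁅D.rep (false, false, false), D.v⁆, D.comm_mem hu D.v_spec.1,
    by simp [cv, commutatorElement_def, mul_assoc]⟩

theorem G0_zero : D.G0 (false, false, false) = (false, false, false) := by
  obtain ⟨φ, hφ, he⟩ := D.cv_zero
  have e : Commute D.v φ := (D.comm_Z3_W hφ D.v_spec.1).symm
  have h : ⁅D.v, φ * D.v⁆ = 1 := commutatorElement_eq_one_iff_mul_comm.2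
    (e.mul_right (Commute.refl _)).eq
  rw [G0, he, h, D.pr_one]

theorem G0_inv (d : E) : D.G0 (invE d) = act3 (invE d) (D.G0 d) := by
  obtain ⟨φ, hφ, he⟩ := D.cv_zero
  have h := D.pr_comm_cv (invE d) (false, false, false)
  rw [invE_invE, mulE_zero] at h
  rw [← h, he, G0]
  congr 1
  have hx := D.cv_mem (invE d)
  rw [← commutatorElement_inv (D.cv (invE d)) D.v,
    inv_eq_of_mul_eq_one_right (D.elem (D.comm_mem hx D.v_spec.1)),
    commutatorElement_mul_right_eq_mul_conj,
    commutatorElement_eq_one_iff_mul_comm.2 (D.comm_Z3_W hφ hx).symm, one_mul]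
  rw [D.comm_Z3 hφ (D.comm_mem hx D.v_spec.1), mul_inv_cancel_right]

/-- The forms in coordinates. -/
noncomputable def Fd (d : E) : Bool × Bool := (D.G0 d).2

theorem beta_cv (g h : E) : D.beta (D.cv g) (D.cv h) = act g (D.Fd (mulE (invE g) h)) := by
  unfold beta Fd
  rw [D.pr_comm_cv, act3_snd]

theorem beta_cv_fst (g h : E) : (D.beta (D.cv g) (D.cv h)).1 = bee D.Fd g h := by
  rw [D.beta_cv]; rfl

theorem q_cv (g : E) : D.q (D.cv g) = act g (D.q D.v) := by
  have h : D.cv g * D.cv g = D.rep g * (D.v * D.v) * (D.rep g)⁻¹ := by simp [cv, mul_assoc]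
  unfold q
  rw [h, D.pr_conj _ (D.sq_mem D.v_spec.1), D.kap_rep, act3_snd]

/-- A product of translates. -/
noncomputable def uL (l : List E) : T := (l.map D.cv).prod

theorem uL_mem (l : List E) : D.uL l ∈ cW T :=
  list_prod_mem fun x hx => by obtain ⟨g, -, rfl⟩ := List.mem_map.1 hx; exact D.cv_mem g

theorem uL_cons (g : E) (l : List E) : D.uL (g :: l) = D.cv g * D.uL l := by simp [uL]

theorem ind_uL (l : List E) (h : E) : D.ind (D.uL l) h = sumChi l h := by
  induction l with
  | nil => simpa [uL, sumChi] using D.ind_Z3 (one_mem _) h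
  | cons g l ih => rw [D.uL_cons, D.ind_mul (D.cv_mem g) (D.uL_mem l), D.ind_cv, ih]; rfl

theorem beta_cv_uL (g : E) (m : List E) :
    (D.beta (D.cv g) (D.uL m)).1 = m.foldr (fun h s => xor (bee D.Fd g h) s) false := by
  induction m with
  | nil =>
    rw [D.beta_comm (D.uL_mem _) (D.cv_mem g), D.beta_Z3 (by simp [uL]) (D.cv_mem g)]
    rfl
  | cons h m ih =>
    rw [D.beta_comm (D.uL_mem _) (D.cv_mem g), D.uL_cons,
      D.beta_left (D.cv_mem h) (D.uL_mem m) (D.cv_mem g), D.beta_comm (D.cv_mem g) (D.cv_mem h),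
      D.beta_comm (D.cv_mem g) (D.uL_mem m)]
    simp only [addB, List.foldr_cons, D.beta_cv_fst, ih]

theorem beta_uL (l m : List E) : (D.beta (D.uL l) (D.uL m)).1 = bsum D.Fd l m := by
  induction l with
  | nil => rw [D.beta_Z3 (by simp [uL]) (D.uL_mem m)]; rfl
  | cons g l ih =>
    rw [D.uL_cons, D.beta_left (D.cv_mem g) (D.uL_mem l) (D.uL_mem m)]
    simp only [addB, bsum, D.beta_cv_uL, ih]

theorem q_uL (l : List E) : (D.q (D.uL l)).1 = qsum D.Fd (D.q D.v) l := by
  induction l with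
  | nil => simp [uL, qsum, q, D.pr_one]
  | cons g l ih =>
    rw [D.uL_cons, D.q_mul (D.cv_mem g) (D.uL_mem l)]
    simp only [addB, qsum, bsum, D.q_cv, D.beta_cv_uL, ih, Bool.xor_false, lam]

theorem ind_fixed {n : T} (hn : n ∈ cW T) (hn4 : n ∈ Z 4) (hn3 : n ∉ Z 3) (g : E) :
    D.ind n g = true := by
  by_contra hne
  have hc : D.rep g * n * (D.rep g)⁻¹ ∈ D.M := by
    unfold ind psi at hne
    simpa using hne
  have hD : D.n ∈ Z 4 ∧ D.n ∉ Z 3 := by
    have h1 := D.n_spec.2
    rw [D.counts.1] at h1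
    exact h1
  have hlt : Z 3 ≤ Z 4 := Subgroup.upperCentralSeries_mono T (show 3 ≤ 4 by omega)
  have hcard : Nat.card ↥(Z 4) = 2 * Nat.card ↥(Z 3) := by
    rw [D.hyp.card_Z le_rfl, D.hyp.card_Z (by omega)]; rfl
  have hcomm : D.rep g * n * (D.rep g)⁻¹ = ⁅D.rep g, n⁆ * n := by simp [commutatorElement_def]
  have hz : ⁅D.rep g, n⁆ ∈ Z 3 := by
    rw [← inv_mem_iff, commutatorElement_inv]
    exact Subgroup.mem_upperCentralSeries_succ_iff.1 hn4 _
  rw [hcomm, Subgroup.mul_mem_cancel_left _ (D.Z3_le_M hz)] at hc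
  rcases idx2 hlt hcard hn4 hn3 hD.1 with h | h
  · exact hD.2 h
  · have := D.M.mul_mem hc (D.Z3_le_M h)
    rw [mul_inv_cancel_left] at this
    exact D.n_not_mem_M this

/-- No fixed vector commutes with `W` modulo the centre of `T`. -/
theorem exists_not_commute {n : T} (hn : n ∈ cW T) (hn4 : n ∈ Z 4) (hn3 : n ∉ Z 3) :
    ∃ w ∈ cW T, D.beta n w ≠ (false, false) := by
  by_contra hall
  push Not at hall
  -- the sum of the values of the form vanishes
  have hmem : n⁻¹ * D.uL allE ∈ Z 3 := D.mem_Z3_of_ind (mul_mem (inv_mem hn) (D.uL_mem _))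
    fun g => by rw [D.ind_mul (inv_mem hn) (D.uL_mem _), D.ind_inv hn, D.ind_fixed hn hn4 hn3,
      D.ind_uL, sumChi_allE]; rfl
  have hN : D.beta (D.uL allE) D.v = (false, false) := by
    have h := D.beta_left hn (D.Z3_le_W hmem) D.v_spec.1
    rwa [mul_inv_cancel_left, hall _ D.v_spec.1, D.beta_Z3 hmem D.v_spec.1] at h
  have hsum : ∀ l, D.beta (D.uL l) D.v = (l.map D.Fd).foldr addB (false, false) := by
    intro l
    induction l with
    | nil => exact D.beta_Z3 (by simp [uL]) D.v_spec.1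
    | cons g l ih =>
      rw [D.uL_cons, D.beta_left (D.cv_mem g) (D.uL_mem l) D.v_spec.1,
        D.beta_comm D.v_spec.1 (D.cv_mem g), ih]
      rfl
  rw [hsum] at hN
  simp only [allE, List.map_cons, List.map_nil, List.foldr_cons, List.foldr_nil, addB,
    Prod.mk.injEq, Bool.xor_false] at hN
  have hF : D.Fd = mkF (D.Fd (true, false, false)).2 (D.Fd (false, true, false)).1
      (D.Fd (false, false, true)).1 (D.Fd (true, false, true)).1 (D.Fd (true, false, true)).2 := by
    refine eq_mkF D.Fd (by rw [Fd, D.G0_zero]) (fun d => by rw [Fd, D.G0_inv, act3_snd]; rfl)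
      (fun d hd => ?_) ?_
    · have h := D.G0_inv d
      rw [hd] at h
      exact act3_fix d (D.G0 d) h.symm
    · rintro i (rfl | rfl)
      · simpa [Bool.xor_assoc] using hN.1
      · simpa [Bool.xor_assoc] using hN.2
  have hwit : ∀ l ∈ wit, (D.q (D.uL l)).1 = false ∧
      ∀ m ∈ wit, (D.beta (D.uL l) (D.uL m)).1 = false := by
    intro l hl
    obtain ⟨h1, h2⟩ := wit_mkF (D.Fd (true, false, false)).2 (D.Fd (false, true, false)).1
      (D.Fd (false, false, true)).1 (D.Fd (true, false, true)).1 (D.Fd (true, false, true)).2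
      (D.q D.v).1 (D.q D.v).2 l hl
    refine ⟨?_, fun m hm => ?_⟩
    · rw [D.q_uL, hF]; exact h1
    · rw [D.beta_uL, hF]; exact h2 m hm
  -- the subgroup given by the five vectors
  let L : Subgroup T :=
    { carrier := {z | z ∈ Z 3 ∧ (D.pr z).2.1 = false}
      one_mem' := ⟨one_mem _, by rw [D.pr_one]⟩
      mul_mem' := fun {a b} ha hb => ⟨mul_mem ha.1 hb.1, by
        rw [D.pr_mul ha.1 hb.1]
        simp [addE, ha.2, hb.2]⟩
      inv_mem' := fun {a} ha => by
        rw [Set.mem_setOf_eq, inv_eq_of_mul_eq_one_right (D.elem ha.1)]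
        exact ha }
  let LW : Subgroup ↥(cW T) := L.subgroupOf (cW T)
  haveI : LW.Normal := Cfsg.Agent.H24.normal_of_le_center fun x hx => by
    have := D.center_contains hx.1
    exact this
  let x : Fin 5 → ↥(cW T) ⧸ LW := fun i =>
    QuotientGroup.mk' LW ⟨D.uL (wit.getD i []), D.uL_mem _⟩
  have hget : ∀ i : Fin 5, wit.getD i [] ∈ wit := by decide
  have hxc : ∀ i j, Commute (x i) (x j) := by
    intro i j
    show x i * x j = x j * x i
    rw [← commutatorElement_eq_one_iff_mul_comm]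
    simp only [x]
    rw [← map_commutatorElement, QuotientGroup.mk'_apply, QuotientGroup.eq_one_iff]
    exact ⟨D.comm_mem (D.uL_mem _) (D.uL_mem _), (hwit _ (hget i)).2 _ (hget j)⟩
  have hxs : ∀ i, x i * x i = 1 := by
    intro i
    simp only [x]
    rw [← map_mul, QuotientGroup.mk'_apply, QuotientGroup.eq_one_iff]
    exact ⟨D.sq_mem (D.uL_mem _), (hwit _ (hget i)).1⟩
  let c : Fin 5 → Bool → ↥(cW T) ⧸ LW := fun i b => cond b (x i) 1
  have hcx : ∀ i b b', c i (xor b b') = c i b * c i b' := by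
    intro i b b'
    cases b <;> cases b' <;> simp [c, hxs]
  have hcc : ∀ i j b b', Commute (c i b) (c j b') := by
    intro i j b b'
    cases b <;> cases b' <;> simp [c, hxc]
  let P : Bool × Bool × Bool × Bool × Bool → ↥(cW T) ⧸ LW := fun e =>
    c 0 e.1 * c 1 e.2.1 * c 2 e.2.2.1 * c 3 e.2.2.2.1 * c 4 e.2.2.2.2
  have hP : ∀ e e', P (xor e.1 e'.1, xor e.2.1 e'.2.1, xor e.2.2.1 e'.2.2.1,
      xor e.2.2.2.1 e'.2.2.2.1, xor e.2.2.2.2 e'.2.2.2.2) = P e * P e' := by
    intro e e'
    simp only [P, hcx]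
    symm
    rw [Commute.mul_mul_mul_comm
        ((((hcc 4 0 _ _).mul_right (hcc 4 1 _ _)).mul_right (hcc 4 2 _ _)).mul_right (hcc 4 3 _ _)),
      Commute.mul_mul_mul_comm (((hcc 3 0 _ _).mul_right (hcc 3 1 _ _)).mul_right (hcc 3 2 _ _)),
      Commute.mul_mul_mul_comm ((hcc 2 0 _ _).mul_right (hcc 2 1 _ _)),
      Commute.mul_mul_mul_comm (hcc 1 0 _ _)]
  let S : Subgroup (↥(cW T) ⧸ LW) :=
    { carrier := Set.range P
      one_mem' := ⟨(false, false, false, false, false), by simp [P, c]⟩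
      mul_mem' := by rintro _ _ ⟨e, rfl⟩ ⟨e', rfl⟩; exact ⟨_, hP e e'⟩
      inv_mem' := by
        rintro _ ⟨e, rfl⟩
        refine ⟨e, eq_inv_of_mul_eq_one_left ?_⟩
        rw [← hP e e]
        simp [P, c] }
  -- lifting
  let cl : Fin 5 → Bool → ↥(cW T) := fun i b => cond b ⟨D.uL (wit.getD i []), D.uL_mem _⟩ 1
  let Pl : Bool × Bool × Bool × Bool × Bool → ↥(cW T) := fun e =>
    cl 0 e.1 * cl 1 e.2.1 * cl 2 e.2.2.1 * cl 3 e.2.2.2.1 * cl 4 e.2.2.2.2
  have hmk : ∀ e, QuotientGroup.mk' LW (Pl e) = P e := by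
    intro e
    have h : ∀ i b, QuotientGroup.mk' LW (cl i b) = c i b := by
      intro i b; cases b <;> simp [cl, c, x]
    simp only [Pl, P, map_mul, h]
  have hindl : ∀ i b g, D.ind (cl i b : T) g = (b && chi (wit.getD i []) (invE g)) := by
    intro i b g
    cases b
    · simpa [cl] using D.ind_Z3 (one_mem _) g
    · simp only [cl, cond_true, Bool.true_and]
      rw [D.ind_uL, sumChi_wit _ (hget i)]
  have hzero : ∀ e, (Pl e : T) ∈ Z 3 → e = (false, false, false, false, false) := by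
    intro e he
    have h := wit_indep e.1 e.2.1 e.2.2.1 e.2.2.2.1 e.2.2.2.2 fun g => by
      have h1 := D.ind_Z3 he (invE g)
      simp only [Pl, Subgroup.coe_mul] at h1
      rw [D.ind_mul (mul_mem (mul_mem (mul_mem (cl 0 _).2 (cl 1 _).2) (cl 2 _).2) (cl 3 _).2) (cl 4 _).2,
        D.ind_mul (mul_mem (mul_mem (cl 0 _).2 (cl 1 _).2) (cl 2 _).2) (cl 3 _).2,
        D.ind_mul (mul_mem (cl 0 _).2 (cl 1 _).2) (cl 2 _).2,
        D.ind_mul (cl 0 _).2 (cl 1 _).2] at h1
      simp only [hindl, invE_invE] at h1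
      exact h1
    obtain ⟨a, b, c, d, f⟩ := e
    simp only at h
    simp [h.1, h.2.1, h.2.2.1, h.2.2.2.1, h.2.2.2.2]
  have hPinj : Function.Injective P := by
    intro e e' he
    have h1 : P (xor e.1 e'.1, xor e.2.1 e'.2.1, xor e.2.2.1 e'.2.2.1,
        xor e.2.2.2.1 e'.2.2.2.1, xor e.2.2.2.2 e'.2.2.2.2) = 1 := by
      rw [hP, he, ← hP]
      simp [P, c]
    rw [← hmk, QuotientGroup.mk'_apply, QuotientGroup.eq_one_iff] at h1
    have h2 := hzero _ h1.1
    have key : ∀ a b : Bool, xor a b = false → a = b := by decide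
    simp only [Prod.mk.injEq] at h2
    exact Prod.ext (key _ _ h2.1) (Prod.ext (key _ _ h2.2.1) (Prod.ext (key _ _ h2.2.2.1)
      (Prod.ext (key _ _ h2.2.2.2.1) (key _ _ h2.2.2.2.2))))
  have hScard : Nat.card ↥S = 32 := by
    rw [show Nat.card ↥S = Nat.card (Set.range P) from rfl, Nat.card_range_of_injective hPinj]
    simp
  have hLcard : Nat.card ↥LW = 4 := by
    rw [Nat.card_congr (Subgroup.subgroupOfEquivOfLe (show L ≤ cW T from
      fun z hz => D.Z3_le_W hz.1)).toEquiv]
    have hb : Function.Bijective fun b : Bool × Bool =>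
        (⟨D.zc (b.1, false, b.2), D.zc_mem _, by rw [D.pr_zc]⟩ : ↥L) := by
      refine ⟨fun a b h => ?_, fun z => ?_⟩
      · have h1 := D.zc_inj (Subtype.ext_iff.1 h)
        simp only [Prod.mk.injEq] at h1
        exact Prod.ext h1.1 h1.2.2
      · refine ⟨((D.pr z.1).1, (D.pr z.1).2.2), Subtype.ext ?_⟩
        conv_rhs => rw [← D.zc_pr z.2.1]
        rw [show D.pr z.1 = ((D.pr z.1).1, (D.pr z.1).2.1, (D.pr z.1).2.2) from rfl, z.2.2]
    rw [← Nat.card_congr (Equiv.ofBijective _ hb)]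
    simp
  have hindex : (S.comap (QuotientGroup.mk' LW)).index ≤ 16 := by
    rw [Subgroup.index_comap_of_surjective _ (QuotientGroup.mk'_surjective _)]
    have h1 := Subgroup.card_mul_index S
    have h2 := Subgroup.card_mul_index LW
    rw [hLcard, D.counts.2.2.1, Subgroup.index_eq_card] at h2
    rw [hScard] at h1
    omega
  have hle := D.hyp.hd _ hindex
  have hz1 : (⟨D.z1, D.Z3_le_W D.z1_mem⟩ : ↥(cW T)) ∈ frattini ↥(cW T) := by
    have h : D.z1 ∈ (frattini ↥(cW T)).map (cW T).subtype := by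
      rw [D.hphi, D.phi_eq]; exact D.z1_mem
    obtain ⟨y, hy, hyz⟩ := h
    rwa [show y = ⟨D.z1, D.Z3_le_W D.z1_mem⟩ from Subtype.ext hyz] at hy
  obtain ⟨e, he⟩ : ∃ e, P e = QuotientGroup.mk' LW ⟨D.z1, D.Z3_le_W D.z1_mem⟩ := hle hz1
  rw [← hmk, QuotientGroup.mk'_apply, QuotientGroup.mk'_apply, QuotientGroup.eq] at he
  have h3 : (Pl e : T) ∈ Z 3 := by
    have := mul_mem D.z1_mem (inv_mem he.1)
    simpa using this
  have he0 := hzero e h3
  subst he0
  have hP0 : Pl (false, false, false, false, false) = 1 := by simp [Pl, cl]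
  rw [hP0] at he
  have := he.2
  simp [D.pr_z1] at this

theorem center_eq : (Subgroup.center ↥(cW T)).map (cW T).subtype = Z 3 := by
  refine le_antisymm (fun z hz => ?_) fun z hz => ⟨⟨z, D.Z3_le_W hz⟩, D.center_contains hz, rfl⟩
  by_contra hc
  obtain ⟨n, hn, hn4, hn3⟩ := exists_mem_succ D.hyp.hT
    ((Subgroup.center ↥(cW T)).map (cW T).subtype) (fun h => hc (h hz))
  obtain ⟨y, hy, rfl⟩ := hn
  obtain ⟨w, hw, hne⟩ := D.exists_not_commute y.2 hn4 hn3
  refine hne ?_
  unfold beta
  rw [commutatorElement_eq_one_iff_mul_comm.2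
    (congrArg Subtype.val (Subgroup.mem_center_iff.1 hy ⟨w, hw⟩)).symm, D.pr_one]

end Data

end Cfsg.Agent.H76.Rud
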