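import Mathlib
import Cfsg.Agent.H76.RudvalisForm
import Cfsg.Prelude.Def_Transfer

/-!
Automorphisms of odd order and isomorphic copies of `W` inside a two-group of Rudvalis type.
-/

set_option autoImplicit false
set_option linter.unusedSectionVars false
set_option linter.style.haveILetI false

namespace Cfsg.Agent.H76.Rud

open scoped commutatorElement

variable {T : Type*} [Group T] [Finite T]

local notation "Z" => Subgroup.upperCentralSeries T

/-- The part of `W` over which the module is built. -/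
abbrev Zw (T : Type*) [Group T] : Subgroup ↥(cW T) :=
  (Subgroup.upperCentralSeries T 3).subgroupOf (cW T)

theorem card_fix : ∀ d : E, d ≠ (false, false, false) → mulE d d = (false, false, false) →
    (Finset.univ.filter fun s : E → Bool => ∀ h, s (mulE h d) = s h).card = 16 := by
  decide +kernel

theorem card_fix_two : ∀ d d' : E, d ≠ (false, false, false) → d' ≠ (false, false, false) →
    d ≠ d' → d.2.2 = false → d'.2.2 = false →
    (Finset.univ.filter fun s : E → Bool =>
      (∀ h, s (mulE h d) = s h) ∧ ∀ h, s (mulE h d') = s h).card = 4 := by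
  decide +kernel

set_option synthInstance.maxSize 1024 in
theorem four_group_cases : ∀ d d' j : E, d ≠ (false, false, false) → d' ≠ (false, false, false) →
    d ≠ d' → mulE d d' = mulE d' d → mulE d d = (false, false, false) →
    mulE d' d' = (false, false, false) →
    (addE (act3 d (false, true, false)) (false, true, false) = (false, false, false) ∨
      addE (act3 d (false, true, false)) (false, true, false) = j) →
    (addE (act3 d (false, false, true)) (false, false, true) = (false, false, false) ∨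
      addE (act3 d (false, false, true)) (false, false, true) = j) →
    (addE (act3 d' (false, true, false)) (false, true, false) = (false, false, false) ∨
      addE (act3 d' (false, true, false)) (false, true, false) = j) →
    (addE (act3 d' (false, false, true)) (false, false, true) = (false, false, false) ∨
      addE (act3 d' (false, false, true)) (false, false, true) = j) →
    d.2.2 = false ∧ d'.2.2 = false := by
  decide +kernel

theorem fix_both : ∀ d d' z : E, d ≠ (false, false, false) → d' ≠ (false, false, false) →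
    d ≠ d' → d.2.2 = false → d'.2.2 = false → act3 d z = z → act3 d' z = z →
    z.2 = (false, false) := by
  decide

theorem mulE_self_of_zero : mulE (false, false, false) (false, false, false) =
    (false, false, false) := rfl

/-- An automorphism of odd order fixes what its square fixes. -/
theorem apply_eq_of_sq {A : Type*} [Group A] (a : MulAut A) (ha : Odd (orderOf a)) {x : A}
    (h : a (a x) = x) : a x = x := by
  obtain ⟨m, hm⟩ := ha
  have h2 : ∀ i : ℕ, (a ^ (2 * i)) x = x := by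
    intro i
    induction i with
    | zero => simp
    | succ i ih => rw [mul_add, pow_add]; simp [MulAut.mul_apply, pow_two, h, ih]
  have h1 := DFunLike.congr_fun (pow_orderOf_eq_one a) x
  rw [hm, pow_succ', MulAut.mul_apply, h2, MulAut.one_apply] at h1
  exact h1

namespace Data

variable (D : Data T)
include D

theorem comm_quotient (a b : ↥(cW T) ⧸ (Zw T)) : a * b = b * a := by
  induction a using QuotientGroup.induction_on with
  | _ a =>
  induction b using QuotientGroup.induction_on with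
  | _ b =>
  rw [← commutatorElement_eq_one_iff_mul_comm, ← QuotientGroup.mk'_apply,
    ← QuotientGroup.mk'_apply, ← map_commutatorElement, QuotientGroup.mk'_apply,
    QuotientGroup.eq_one_iff]
  exact D.comm_mem a.2 b.2

/-- An automorphism of odd order is trivial. -/
theorem aut_eq_one (a : MulAut T) (ha : Odd (orderOf a)) : a = 1 := by
  have hchar : ∀ (k : ℕ) {x : T}, x ∈ Z k → a x ∈ Z k := fun k x hx => by
    have h := Subgroup.Characteristic.fixed (H := Z k) inferInstance a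
    rw [← h] at hx
    exact hx
  have hinj : ∀ (k : ℕ) {x : T}, a x ∈ Z k → x ∈ Z k := fun k x hx => by
    have h := Subgroup.Characteristic.fixed (H := Z k) inferInstance a
    rw [← h]
    exact hx
  have h0 : a D.z0 = D.z0 := by
    rcases D.mem_Z1 (hchar 1 D.hz0) with h | h
    · exact absurd (by simpa using h : D.z0 = 1) (by simpa using D.hz0')
    · exact h
  have h1 : a D.z1 = D.z1 := by
    refine apply_eq_of_sq a ha ?_
    rcases D.mem_Z2 (hchar 2 D.hz1) with h | h
    · exact absurd (hinj 1 h) D.hz1'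
    · rcases D.mem_Z1 h with h' | h'
      · rw [inv_mul_eq_one] at h'
        rw [← h', ← h']
      · rw [inv_mul_eq_iff_eq_mul] at h'
        rw [h', map_mul, h0, h', mul_assoc, D.elem D.z0_mem, mul_one]
  have h12 : ∀ x ∈ Z 2, a x = x := by
    intro x hx
    obtain ⟨i, j, rfl⟩ := D.zc_surj_two hx
    cases i <;> cases j <;> simp [zc, h0, h1]
  have h2 : a D.z2 = D.z2 := by
    refine apply_eq_of_sq a ha ?_
    rcases D.mem_Z3 (hchar 3 D.hz2) with h | h
    · exact absurd (hinj 2 h) D.hz2'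
    · obtain ⟨c, hc⟩ : ∃ c, c = D.z2⁻¹ * a D.z2 := ⟨_, rfl⟩
      rw [← hc] at h
      have h' : a D.z2 = D.z2 * c := by rw [hc, mul_inv_cancel_left]
      have h3 := Subgroup.upperCentralSeries_mono T (show 2 ≤ 3 by omega) h
      rw [h', map_mul, h12 _ h, h', mul_assoc, D.elem h3, mul_one]
  have h3 : ∀ x ∈ Z 3, a x = x := by
    intro x hx
    obtain ⟨⟨i, j, k⟩, rfl⟩ := D.zc_surj hx
    cases i <;> cases j <;> cases k <;> simp [zc, h0, h1, h2]
  -- `a` is trivial modulo `W`
  have hW : ∀ t, t⁻¹ * a t ∈ cW T := by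
    intro t
    refine D.inv_mul_mem_of_kap ?_
    have e : ∀ z ∈ Z 3, a t * z * (a t)⁻¹ = t * z * t⁻¹ := by
      intro z hz
      conv_lhs => rw [← h3 z hz, ← map_inv, ← map_mul, ← map_mul]
      exact h3 _ (Subgroup.Normal.conj_mem inferInstance z hz t)
    unfold kap
    rw [e _ D.z1_mem, e _ D.hz2]
  have haW : ∀ {w : T}, w ∈ cW T → a w ∈ cW T := fun {w} hw => by
    refine Subgroup.mem_centralizer_iff.2 fun z hz => ?_
    rw [← h3 z hz, ← map_mul, ← map_mul, D.comm_Z3_W hz hw]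
  -- the displacement on `W` modulo the third centre
  let X : Subgroup T :=
    { carrier := {x | x ∈ cW T ∧ ∃ w ∈ cW T, x⁻¹ * (w⁻¹ * a w) ∈ Z 3}
      one_mem' := ⟨one_mem _, 1, one_mem _, by simp⟩
      mul_mem' := by
        rintro x y ⟨hx, w, hw, h⟩ ⟨hy, u, hu, h'⟩
        refine ⟨mul_mem hx hy, w * u, mul_mem hw hu, ?_⟩
        have hp : w⁻¹ * a w ∈ cW T := mul_mem (inv_mem hw) (haW hw)
        have hc := D.comm_mem (inv_mem hu) hp
        have hcomm := D.comm_Z3_W hc (inv_mem (mul_mem hx hy))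
        have key : (x * y)⁻¹ * ((w * u)⁻¹ * a (w * u)) =
            ⁅u⁻¹, w⁻¹ * a w⁆ * ((y⁻¹ * (x⁻¹ * (w⁻¹ * a w)) * y) * (y⁻¹ * (u⁻¹ * a u))) := by
          have e : (w * u)⁻¹ * a (w * u) =
              ⁅u⁻¹, w⁻¹ * a w⁆ * ((w⁻¹ * a w) * (u⁻¹ * a u)) := by
            simp [commutatorElement_def, mul_assoc]
          rw [e, ← mul_assoc (x * y)⁻¹, ← hcomm]
          simp [mul_assoc]
        rw [key]
        refine mul_mem hc (mul_mem ?_ h')
        simpa using Subgroup.Normal.conj_mem inferInstance _ h y⁻¹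
      inv_mem' := by
        rintro x ⟨hx, w, hw, h⟩
        refine ⟨inv_mem hx, w, hw, ?_⟩
        have := mul_mem (D.sq_mem hx) h
        simpa [mul_assoc] using this }
  have hXmem : ∀ {x : T}, x ∈ X ↔ ∃ w ∈ cW T, ∃ _ : x ∈ cW T, x⁻¹ * (w⁻¹ * a w) ∈ Z 3 := by
    intro x
    exact ⟨fun ⟨hx, w, hw, h⟩ => ⟨w, hw, hx, h⟩, fun ⟨w, hw, hx, h⟩ => ⟨hx, w, hw, h⟩⟩
  haveI hXn : X.Normal := by
    refine ⟨fun x hx t => ?_⟩
    obtain ⟨w, hw, hxW, h⟩ := hXmem.1 hx
    refine hXmem.2 ⟨t * w * t⁻¹, conj_mem_W hw t, conj_mem_W hxW t, ?_⟩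
    have hc : ⁅t⁻¹ * a t, a w⁆ ∈ Z 3 := D.comm_mem (hW t) (haW hw)
    have key : (t * x * t⁻¹)⁻¹ * ((t * w * t⁻¹)⁻¹ * a (t * w * t⁻¹)) =
        t * ((x⁻¹ * (w⁻¹ * a w)) * ((a w)⁻¹ * ⁅t⁻¹ * a t, a w⁆ * a w)) * t⁻¹ := by
      simp [commutatorElement_def, mul_assoc]
    rw [key]
    refine Subgroup.Normal.conj_mem inferInstance _ (mul_mem h ?_) t
    simpa using Subgroup.Normal.conj_mem inferInstance _ hc (a w)⁻¹
  have hX : X ≤ Z 3 := by
    by_contra hle
    obtain ⟨n, hn, hn4, hn3⟩ := exists_mem_succ D.hyp.hT X hle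
    obtain ⟨w, hw, hnW, h⟩ := hXmem.1 hn
    have hy4 : w⁻¹ * a w ∈ Z 4 := by
      have := mul_mem hn4 (Subgroup.upperCentralSeries_mono T (show 3 ≤ 4 by omega) h)
      rwa [mul_inv_cancel_left] at this
    have hy3 : w⁻¹ * a w ∉ Z 3 := fun hc => hn3 (by
      have := mul_mem hc (inv_mem h)
      rwa [mul_inv_rev, inv_inv, mul_inv_cancel_left] at this)
    have hay : (w⁻¹ * a w)⁻¹ * a (w⁻¹ * a w) ∈ Z 3 := by
      rcases idx2 (Subgroup.upperCentralSeries_mono T (show 3 ≤ 4 by omega))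
        (by rw [D.hyp.card_Z le_rfl, D.hyp.card_Z (by omega)]; rfl) hy4 hy3 (hchar 4 hy4)
        with hh | hh
      · exact absurd (hinj 3 hh) hy3
      · exact hh
    set y := w⁻¹ * a w with hy
    have hyW : y ∈ cW T := mul_mem (inv_mem hw) (haW hw)
    have hpow : ∀ i : ℕ, (w * y ^ i)⁻¹ * (a ^ i) w ∈ Z 3 := by
      intro i
      induction i with
      | zero => simp
      | succ i ih =>
        have e1 : (a ^ (i + 1)) w = a ((a ^ i) w) := by rw [pow_succ']; rfl
        have e2 : (a ^ i) w = w * y ^ i * ((w * y ^ i)⁻¹ * (a ^ i) w) :=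
          (mul_inv_cancel_left _ _).symm
        have e3 : ∀ j : ℕ, (y ^ j)⁻¹ * a (y ^ j) ∈ Z 3 := by
          intro j
          induction j with
          | zero => simp
          | succ j ihj =>
            have e4 : (y ^ (j + 1))⁻¹ * a (y ^ (j + 1)) =
                (y⁻¹ * ((y ^ j)⁻¹ * a (y ^ j)) * y⁻¹⁻¹) * (y⁻¹ * a y) := by
              simp [pow_succ, mul_assoc]
            rw [e4]
            exact mul_mem (Subgroup.Normal.conj_mem inferInstance _ ihj _) hay
        have e5 : (w * y ^ (i + 1))⁻¹ * (a ^ (i + 1)) w =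
            (y ^ i)⁻¹ * a (y ^ i) * a ((w * y ^ i)⁻¹ * (a ^ i) w) := by
          rw [e1]
          conv_lhs => rw [e2, map_mul, map_mul]
          rw [pow_succ', mul_inv_rev]
          simp [hy, mul_assoc]
        rw [e5]
        exact mul_mem (e3 i) (hchar 3 ih)
    have hm := hpow (orderOf a)
    rw [pow_orderOf_eq_one, MulAut.one_apply, mul_inv_rev, inv_mul_cancel_right, inv_mem_iff] at hm
    obtain ⟨m, hm'⟩ := ha
    rw [hm', pow_succ, pow_mul, pow_two] at hm
    exact hy3 (((Z 3).mul_mem_cancel_left (pow_mem (D.sq_mem hyW) m)).1 hm)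
  have hWfix : ∀ w ∈ cW T, a w = w := by
    intro w hw
    refine apply_eq_of_sq a ha ?_
    have h : w⁻¹ * a w ∈ Z 3 :=
      hX (hXmem.2 ⟨w, hw, mul_mem (inv_mem hw) (haW hw), by simp⟩)
    obtain ⟨c, hc⟩ : ∃ c, c = w⁻¹ * a w := ⟨_, rfl⟩
    rw [← hc] at h
    have e : a w = w * c := by rw [hc, mul_inv_cancel_left]
    rw [e, map_mul, h3 _ h, e, mul_assoc, D.elem h, mul_one]
  refine MulEquiv.ext fun t => ?_
  change a t = t
  have h := hWfix _ (hW t)
  have hpow : ∀ i : ℕ, (a ^ i) t = t * (t⁻¹ * a t) ^ i := by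
    intro i
    induction i with
    | zero => simp
    | succ i ih =>
      rw [pow_succ', MulAut.mul_apply, ih, map_mul, map_pow, h]
      rw [pow_succ', ← mul_assoc t, mul_inv_cancel_left]
  have hord := hpow (orderOf a)
  rw [pow_orderOf_eq_one, MulAut.one_apply, eq_comm, mul_eq_left] at hord
  obtain ⟨k, hk⟩ := D.hyp.hT (t⁻¹ * a t)
  have hcop : Nat.Coprime (orderOf a) (2 ^ k) := (Nat.coprime_two_right.2 ha).pow_right k
  have h1 : (t⁻¹ * a t) ^ Nat.gcd (orderOf a) (2 ^ k) = 1 :=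
    pow_gcd_eq_one.2 ⟨hord, hk⟩
  rw [hcop, pow_one, inv_mul_eq_one] at h1
  exact h1.symm

/-- The action of an element on `W` modulo the third centre. -/
noncomputable def conjQ (x : T) : ↥(cW T) ⧸ (Zw T) →* ↥(cW T) ⧸ (Zw T) :=
  QuotientGroup.map (Zw T) (Zw T)
    (MonoidHom.mk' (fun w : ↥(cW T) => (⟨x * w * x⁻¹, conj_mem_W w.2 x⟩ : ↥(cW T)))
      fun a b => Subtype.ext (by simp [mul_assoc]))
    (fun w hw => Subgroup.Normal.conj_mem (inferInstance : (Z 3).Normal) (w : T) hw x)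

theorem conjQ_mk (x : T) (w : ↥(cW T)) :
    conjQ x (QuotientGroup.mk w : ↥(cW T) ⧸ Zw T) =
      QuotientGroup.mk ⟨x * w * x⁻¹, conj_mem_W w.2 x⟩ := rfl

theorem ind_conj {w : T} (hw : w ∈ cW T) (x : T) (h : E) :
    D.ind (x * w * x⁻¹) h = D.ind w (mulE h (D.kap x)) := by
  have h2 : D.psi (x * w * x⁻¹) (D.rep h) ↔ D.psi w (D.rep h * x) := by
    unfold psi
    simp [mul_assoc]
  have h3 := D.psi_rep hw (D.rep h * x)
  rw [D.kap_mul, D.kap_rep] at h3
  unfold ind
  exact decide_eq_decide.2 (h2.trans h3)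

/-- The module as a set of functions. -/
noncomputable def indQ (q : ↥(cW T) ⧸ (Zw T)) : E → Bool := D.ind (q.out : T)

theorem indQ_mk (w : ↥(cW T)) : D.indQ (QuotientGroup.mk w) = D.ind (w : T) := by
  obtain ⟨u, hu⟩ := QuotientGroup.mk_out_eq_mul (Zw T) w
  funext g
  rw [indQ, hu, Subgroup.coe_mul, D.ind_mul w.2 (u : ↥(cW T)).2,
    D.ind_Z3 (show ((u : ↥(cW T)) : T) ∈ Z 3 from u.2), Bool.xor_false]

theorem indQ_inj : Function.Injective D.indQ := by
  intro p q h
  induction p using QuotientGroup.induction_on with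
  | _ p =>
  induction q using QuotientGroup.induction_on with
  | _ q =>
  rw [D.indQ_mk, D.indQ_mk] at h
  rw [QuotientGroup.eq]
  refine D.mem_Z3_of_ind (p⁻¹ * q).2 fun g => ?_
  rw [Subgroup.coe_subtype, Subgroup.coe_mul, Subgroup.coe_inv, D.ind_mul (inv_mem p.2) q.2,
    D.ind_inv p.2, h, Bool.xor_self]

theorem indQ_conjQ (x : T) (q : ↥(cW T) ⧸ (Zw T)) (h : E) :
    D.indQ (conjQ x q) h = D.indQ q (mulE h (D.kap x)) := by
  induction q using QuotientGroup.induction_on with
  | _ w =>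
  rw [D.conjQ_mk, D.indQ_mk, D.indQ_mk]
  exact D.ind_conj w.2 x h

set_option maxHeartbeats 2000000 in
/-- An isomorphic copy of `W` inside `T` is equal to `W`. -/
theorem eq_W_of_equiv (R : Subgroup T) (e : ↥(cW T) ≃* ↥R) : R = cW T := by
  classical
  have hcR : Nat.card ↥R = 2 ^ 11 := by rw [← Nat.card_congr e.toEquiv, D.counts.2.2.1]
  by_contra hne
  have hRW : ¬ R ≤ cW T := fun h =>
    hne (Subgroup.eq_of_le_of_card_ge h (by rw [hcR, D.counts.2.2.1]))
  obtain ⟨U, hU⟩ : ∃ U : Subgroup T, U = R ⊓ cW T := ⟨_, rfl⟩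
  obtain ⟨Y, hY⟩ : ∃ Y : Subgroup T, Y = ((Zw T).map e.toMonoidHom).map R.subtype := ⟨_, rfl⟩
  have hYR : Y ≤ R := hY ▸ Subgroup.map_subtype_le _
  have hYcard : Nat.card ↥Y = 8 := by
    rw [hY, Subgroup.card_map_of_injective R.subtype_injective,
      Subgroup.card_map_of_injective (f := e.toMonoidHom) e.injective,
      Nat.card_congr (Subgroup.subgroupOfEquivOfLe D.Z3_le_W).toEquiv, D.hyp.card_Z (by omega)]
    rfl
  have hYe : ∀ {w : ↥(cW T)}, (w : T) ∈ Z 3 → (e w : T) ∈ Y := fun {w} hw => by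
    rw [hY]
    exact ⟨e w, ⟨w, hw, rfl⟩, rfl⟩
  have hsqR : ∀ x ∈ R, x * x ∈ Y := by
    intro x hx
    obtain ⟨w, hw⟩ := e.surjective ⟨x, hx⟩
    have h := hYe (w := w * w) (D.sq_mem w.2)
    rw [map_mul, hw] at h
    exact h
  have hcommR : ∀ x ∈ R, ∀ y ∈ R, ⁅x, y⁆ ∈ Y := by
    intro x hx y hy
    obtain ⟨u, hu⟩ := e.surjective ⟨x, hx⟩
    obtain ⟨w, hw⟩ := e.surjective ⟨y, hy⟩
    have h := hYe (w := ⁅u, w⁆) (D.comm_mem u.2 w.2)
    rw [map_commutatorElement, hu, hw] at h
    exact h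
  have hYcen : ∀ y ∈ Y, ∀ x ∈ R, y * x = x * y := by
    intro y hy x hx
    rw [hY] at hy
    obtain ⟨_, ⟨z, hz, rfl⟩, rfl⟩ := hy
    obtain ⟨w, hw⟩ := e.surjective ⟨x, hx⟩
    have h : z * w = w * z := Subtype.ext (D.comm_Z3_W hz w.2)
    have h' := congrArg (fun u => (e u : T)) h
    simp only [map_mul, Subgroup.coe_mul, hw] at h'
    exact h'
  -- index of the intersection
  have hrel : U.relIndex R ≤ 8 := by
    rw [hU, Subgroup.inf_relIndex_left, ← D.counts.2.1, ← Subgroup.relIndex_top_right]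
    exact Subgroup.relIndex_le_of_le_right le_top (by
      rw [Subgroup.relIndex_top_right, D.counts.2.1]; omega)
  have hUR : U ≤ R := hU ▸ inf_le_left
  have hUW : U ≤ cW T := hU ▸ inf_le_right
  have hmulR := Subgroup.relIndex_mul_relIndex ⊥ U R bot_le hUR
  have hmulW := Subgroup.relIndex_mul_relIndex ⊥ U (cW T) bot_le hUW
  rw [Subgroup.relIndex_bot_left, Subgroup.relIndex_bot_left, hcR] at hmulR
  rw [Subgroup.relIndex_bot_left, Subgroup.relIndex_bot_left, D.counts.2.2.1, ← hmulR] at hmulW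
  have hrelW : U.relIndex (cW T) = U.relIndex R :=
    Nat.eq_of_mul_eq_mul_left Nat.card_pos hmulW
  have hphiW : ∀ z ∈ Z 3, ∃ hz : z ∈ cW T, (⟨z, hz⟩ : ↥(cW T)) ∈ frattini ↥(cW T) := by
    intro z hz
    have h : z ∈ (frattini ↥(cW T)).map (cW T).subtype := by
      rw [D.hphi, D.phi_eq]; exact hz
    obtain ⟨⟨y, hy'⟩, hy, hyz⟩ := h
    have hyz' : y = z := hyz
    subst hyz'
    exact ⟨hy', hy⟩
  have hZU : Z 3 ≤ U := by
    intro z hz
    obtain ⟨hz', hf⟩ := hphiW z hz
    have h8 : (U.subgroupOf (cW T)).index ≤ 16 := by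
      change U.relIndex (cW T) ≤ 16
      omega
    exact D.hyp.hd _ h8 hf
  have hYU : Y ≤ U := by
    intro y hy
    rw [hY] at hy
    obtain ⟨_, ⟨z, hz, rfl⟩, rfl⟩ := hy
    have h8 : ((U.subgroupOf R).comap e.toMonoidHom).index ≤ 16 := by
      rw [Subgroup.index_comap_of_surjective _ e.surjective]
      change U.relIndex R ≤ 16
      omega
    obtain ⟨hz', hf⟩ := hphiW (z : T) hz
    exact D.hyp.hd _ h8 hf
  have hYW : Y ≤ cW T := hYU.trans hUW
  -- elements outside `W`
  have hkap : ∀ x ∈ R, x ∉ U → D.kap x ≠ (false, false, false) := by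
    intro x hx hxU hk
    refine hxU ?_
    rw [hU]
    have h1 := D.inv_mul_mem_of_kap (t := x) (s := 1) (by rw [hk, D.kap_of_mem (one_mem _)])
    rw [inv_one, one_mul] at h1
    exact ⟨hx, h1⟩
  have hkap2 : ∀ x ∈ R, mulE (D.kap x) (D.kap x) = (false, false, false) := by
    intro x hx
    rw [← D.kap_mul]
    exact D.kap_of_mem (hYW (hsqR x hx))
  obtain ⟨Yq, hYq⟩ : ∃ Yq : Subgroup (↥(cW T) ⧸ (Zw T)),
    Yq = (Y.subgroupOf (cW T)).map (QuotientGroup.mk' (Zw T)) := ⟨_, rfl⟩
  obtain ⟨Uq, hUq⟩ : ∃ Uq : Subgroup (↥(cW T) ⧸ (Zw T)),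
    Uq = (U.subgroupOf (cW T)).map (QuotientGroup.mk' (Zw T)) := ⟨_, rfl⟩
  have hUqcard : Uq.index = U.relIndex R := by
    rw [hUq, Subgroup.index_map_eq _ (QuotientGroup.mk'_surjective _)]
    · exact hrelW
    · rw [QuotientGroup.ker_mk']
      exact fun z hz => hZU hz
  have hQcard : Nat.card (↥(cW T) ⧸ (Zw T)) = 256 := by
    have h := Subgroup.card_mul_index (Zw T)
    rw [Nat.card_congr (Subgroup.subgroupOfEquivOfLe D.Z3_le_W).toEquiv,
      D.hyp.card_Z (by omega), D.counts.2.2.1, Subgroup.index_eq_card] at h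
    omega
  have hYqcard : Nat.card ↥Yq * Nat.card ↥(Y ⊓ Z 3) = 8 := by
    let g : ↥Y →* ↥(cW T) ⧸ Zw T := (QuotientGroup.mk' (Zw T)).comp (Subgroup.inclusion hYW)
    have hr : g.range = Yq := by
      rw [hYq]
      ext q
      exact ⟨fun ⟨y, hy⟩ => ⟨⟨y, hYW y.2⟩, y.2, hy⟩, fun ⟨y, hy, h⟩ => ⟨⟨y, hy⟩, h⟩⟩
    have hk : g.ker = (Z 3 ⊓ Y).subgroupOf Y := by
      ext y
      rw [MonoidHom.mem_ker, Subgroup.mem_subgroupOf, Subgroup.mem_inf]
      exact ⟨fun h => ⟨(QuotientGroup.eq_one_iff (N := Zw T) _).1 h, y.2⟩,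
        fun h => (QuotientGroup.eq_one_iff (N := Zw T) _).2 h.1⟩
    have h := Subgroup.card_eq_card_quotient_mul_card_subgroup g.ker
    rw [Nat.card_congr (QuotientGroup.quotientKerEquivRange g).toEquiv, hr, hk,
      Nat.card_congr (Subgroup.subgroupOfEquivOfLe inf_le_right).toEquiv, hYcard, inf_comm] at h
    exact h.symm
  have hJcomm : ∀ z ∈ Z 3, ∀ x ∈ R, ⁅x, z⁆ ∈ Y ⊓ Z 3 := fun z hz x hx =>
    ⟨hcommR x hx z (hUR (hZU hz)), by
      have h : ⁅x, z⁆ = (x * z * x⁻¹) * z⁻¹ := commutatorElement_def x z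
      rw [h]
      exact mul_mem (Subgroup.Normal.conj_mem (inferInstance : (Z 3).Normal) z hz x)
        ((Z 3).inv_mem hz)⟩
  obtain ⟨x, hx, hxW⟩ := SetLike.not_le_iff_exists.1 hRW
  have hJ : 2 ≤ Nat.card ↥(Y ⊓ Z 3) := by
    refine (Subgroup.one_lt_card_iff_ne_bot _).2 fun hb => hxW ?_
    refine Subgroup.mem_centralizer_iff.2 fun z hz => ?_
    have h := hJcomm z hz x hx
    rw [hb, Subgroup.mem_bot, commutatorElement_eq_one_iff_mul_comm] at h
    exact h.symm
  -- the displacement of an element outside `W`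
  have hdelta : ∀ x ∈ R, x ∉ U →
      (∀ q ∈ Uq, conjQ x q * q⁻¹ ∈ Yq) ∧
      ∀ {K : Subgroup (↥(cW T) ⧸ (Zw T))}, (∀ q, q ∈ K ↔ conjQ x q = q) → Nat.card ↥K = 16 := by
    intro x hx hxU
    refine ⟨fun q hq => ?_, fun {K} hK => ?_⟩
    · rw [hUq] at hq
      obtain ⟨u, hu, rfl⟩ := hq
      rw [hYq]
      refine ⟨⟨⁅x, (u : T)⁆, hYW (hcommR x hx u (hUR hu))⟩, hcommR x hx u (hUR hu), ?_⟩
      simp only [QuotientGroup.mk'_apply]
      rw [D.conjQ_mk,
        ← QuotientGroup.mk_inv, ← QuotientGroup.mk_mul]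
      rfl
    · have hb : (Finset.univ.filter fun s : E → Bool =>
          ∀ h, s (mulE h (D.kap x)) = s h).card = 16 := card_fix _ (hkap x hx hxU) (hkap2 x hx)
      let f : ↥K → {s : E → Bool // ∀ h, s (mulE h (D.kap x)) = s h} := fun q =>
        ⟨D.indQ q.1, fun h => by rw [← D.indQ_conjQ, (hK q.1).1 q.2]⟩
      have hf : Function.Bijective f := by
        refine ⟨fun p q h => Subtype.ext (D.indQ_inj (Subtype.ext_iff.1 h)), fun s => ?_⟩
        obtain ⟨w, hw, hws⟩ := D.ind_surj s.1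
        refine ⟨⟨QuotientGroup.mk ⟨w, hw⟩, (hK _).2 (D.indQ_inj (funext fun h => ?_))⟩,
          Subtype.ext ?_⟩
        · rw [D.indQ_conjQ, D.indQ_mk]
          change D.ind w _ = D.ind w _
          rw [hws]
          exact s.2 h
        · exact (D.indQ_mk _).trans hws
      rw [Nat.card_congr (Equiv.ofBijective f hf), Nat.card_eq_fintype_card, Fintype.card_subtype,
        hb]
  -- the fixed points lie in the intersection
  have hfix : ∀ x ∈ R, x ∉ U → U.relIndex R = 4 ∧ Nat.card ↥Yq = 4 ∧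
      ∀ q, conjQ x q = q → q ∈ Uq := by
    intro x hx hxU
    obtain ⟨h1, h2⟩ := hdelta x hx hxU
    let K : Subgroup (↥(cW T) ⧸ (Zw T)) := (conjQ x).eqLocus (MonoidHom.id _)
    have hK : Nat.card ↥K = 16 := h2 (K := K) fun q => Iff.rfl
    let δ : ↥Uq →* ↥Yq := MonoidHom.mk' (fun q => ⟨conjQ x q.1 * q.1⁻¹, h1 q.1 q.2⟩)
      fun p q => Subtype.ext (by
        simp only [Subgroup.coe_mul, map_mul, mul_inv_rev]
        rw [D.comm_quotient (q.1⁻¹) (p.1⁻¹)]
        simp only [mul_assoc]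
        rw [← mul_assoc (conjQ x q.1) (p.1⁻¹), D.comm_quotient (conjQ x q.1) (p.1⁻¹)]
        simp only [mul_assoc])
    have hker : δ.ker = K.subgroupOf Uq := by
      ext q
      rw [MonoidHom.mem_ker, Subtype.ext_iff]
      change conjQ x q.1 * q.1⁻¹ = 1 ↔ conjQ x q.1 = q.1
      exact mul_inv_eq_one
    have hc1 := Subgroup.card_eq_card_quotient_mul_card_subgroup δ.ker
    rw [Nat.card_congr (QuotientGroup.quotientKerEquivRange δ).toEquiv, hker] at hc1
    have hc2 : Nat.card ↥δ.range ≤ Nat.card ↥Yq := Subgroup.card_le_card_group _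
    have hc3 : Nat.card ↥(K.subgroupOf Uq) = Nat.card ↥(K ⊓ Uq) := by
      rw [← Subgroup.inf_subgroupOf_right,
        Nat.card_congr (Subgroup.subgroupOfEquivOfLe inf_le_right).toEquiv]
    have hc4 : Nat.card ↥(K ⊓ Uq) ≤ 16 := hK ▸ Subgroup.card_le_of_le inf_le_left
    have hc5 := Subgroup.card_mul_index Uq
    rw [hUqcard, hQcard] at hc5
    have hYq4 : Nat.card ↥Yq ≤ 4 := by nlinarith
    obtain ⟨j, hj⟩ := (D.hyp.hT.to_subgroup R).index (U.subgroupOf R)
    have hj' : U.relIndex R = 2 ^ j := hj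
    rw [hc3] at hc1
    have hj2 : U.relIndex R ≠ 1 := fun hh => hxU ((Subgroup.relIndex_eq_one.1 hh) hx)
    have hle : Nat.card ↥Uq ≤ Nat.card ↥δ.range * 16 := hc1 ▸ Nat.mul_le_mul_left _ hc4
    have hne8 : U.relIndex R ≠ 8 := by
      intro h8
      have hsurj : ∀ d : E, mulE d d = (false, false, false) := by
        intro d
        have hcard : Nat.card (↥R ⧸ U.subgroupOf R) = Nat.card E := by
          rw [← Subgroup.index_eq_card]
          change U.relIndex R = _
          rw [h8]; simp [E]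
        have hinj : Function.Injective fun r : ↥R ⧸ U.subgroupOf R => D.kap (r.out : T) := by
          intro r s hrs
          rw [← r.out_eq', ← s.out_eq', QuotientGroup.eq, Subgroup.mem_subgroupOf]
          exact hU.ge ⟨(r.out⁻¹ * s.out).2, D.inv_mul_mem_of_kap hrs.symm⟩
        obtain ⟨r, hr⟩ := (hinj.bijective_of_nat_card_le hcard.ge).2 d
        rw [← hr]
        exact hkap2 _ r.out.2
      exact absurd (hsurj (true, false, true)) (by decide)
    have hj3 : j ≤ 3 := by
      by_contra hc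
      have : 2 ^ 4 ≤ 2 ^ j := Nat.pow_le_pow_right (by omega) (by omega)
      omega
    rw [hj'] at hc5 hj2 hne8 ⊢
    interval_cases j
    · exact absurd rfl hj2
    · exfalso; omega
    · simp only [Nat.reducePow] at *
      have hU64 : Nat.card ↥Uq = 64 := by omega
      have hr4 : Nat.card ↥δ.range = 4 := by omega
      have hYq' : Nat.card ↥Yq = 4 := by omega
      have hK16 : Nat.card ↥(K ⊓ Uq) = 16 := by rw [hU64, hr4] at hc1; omega
      refine ⟨trivial, hYq', fun q hq => ?_⟩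
      have := Subgroup.eq_of_le_of_card_ge (inf_le_left : K ⊓ Uq ≤ K) (by rw [hK16, hK])
      have hqK : q ∈ K := hq
      rw [← this] at hqK
      exact hqK.2
    · exact absurd rfl hne8
  have hxU : x ∉ U := fun h => hxW (hUW h)
  obtain ⟨h4, hYq4, -⟩ := hfix x hx hxU
  obtain ⟨x', hx', hx'U, hxx'⟩ : ∃ x' ∈ R, x' ∉ U ∧ D.kap x ≠ D.kap x' := by
    by_contra hc
    push Not at hc
    have hle : Nat.card (↥R ⧸ U.subgroupOf R) ≤ 2 := by
      have hinj : Function.Injective fun r : ↥R ⧸ U.subgroupOf R => decide ((r.out : T) ∈ U) := by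
        intro r s hrs
        simp only [decide_eq_decide] at hrs
        rw [← r.out_eq', ← s.out_eq', QuotientGroup.eq, Subgroup.mem_subgroupOf]
        by_cases hr : (r.out : T) ∈ U
        · exact mul_mem (inv_mem hr) (hrs.1 hr)
        · refine hU.ge ⟨(r.out⁻¹ * s.out).2, D.inv_mul_mem_of_kap ?_⟩
          rw [← hc _ r.out.2 hr, ← hc _ s.out.2 fun h => hr (hrs.2 h)]
      exact (Nat.card_le_card_of_injective _ hinj).trans_eq (by simp)
    rw [← Subgroup.index_eq_card] at hle
    change U.relIndex R ≤ 2 at hle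
    omega
  have hd0 := hkap x hx hxU
  have hd0' := hkap x' hx' hx'U
  -- the commutators with the third centre lie in a subgroup of order two
  have hJ2 : Nat.card ↥(Y ⊓ Z 3) = 2 := by rw [hYq4] at hYqcard; omega
  obtain ⟨j, hj1, hjgen⟩ : ∃ j : T, j ∈ Z 3 ∧ ∀ z ∈ Y ⊓ Z 3, z = 1 ∨ z = j := by
    obtain ⟨⟨a, ha⟩, ⟨b, hb⟩, hab, huniv⟩ := Nat.card_eq_two_iff.1 hJ2
    by_cases ha1 : a = 1
    · refine ⟨b, hb.2, fun z hz => ?_⟩
      have := Set.eq_univ_iff_forall.1 huniv ⟨z, hz⟩
      simpa [ha1] using this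
    · have hb1 : b = 1 := by
        rcases Set.eq_univ_iff_forall.1 huniv ⟨1, one_mem _⟩ with h | h
        · exact absurd (Subtype.ext_iff.1 h).symm ha1
        · exact (Subtype.ext_iff.1 (Set.mem_singleton_iff.1 h)).symm
      refine ⟨a, ha.2, fun z hz => ?_⟩
      have := Set.eq_univ_iff_forall.1 huniv ⟨z, hz⟩
      simp only [Set.mem_insert_iff, Set.mem_singleton_iff, Subtype.mk.injEq] at this
      rw [hb1] at this
      tauto
  have hline : ∀ y ∈ R, ∀ z : E,
      addE (act3 (D.kap y) z) z = (false, false, false) ∨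
        addE (act3 (D.kap y) z) z = D.pr j := by
    intro y hy z
    have h := hJcomm (D.zc z) (D.zc_mem z) y hy
    have he : ⁅y, D.zc z⁆ = D.zc (addE (act3 (D.kap y) z) z) := by
      rw [commutatorElement_def, D.conj_zc, D.zc_add,
        inv_eq_of_mul_eq_one_right (D.elem (D.zc_mem z))]
    rcases hjgen _ h with h1 | h1
    · exact Or.inl (D.zc_eq_one (he ▸ h1))
    · refine Or.inr ?_
      rw [← h1, he, D.pr_zc]
  obtain ⟨hc0, hc0'⟩ := four_group_cases (D.kap x) (D.kap x') (D.pr j) hd0 hd0' hxx'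
    (by
      rw [← D.kap_mul, ← D.kap_mul]
      have h : ⁅x, x'⁆ * (x' * x) = x * x' := by simp [commutatorElement_def, mul_assoc]
      rw [← h, D.kap_mul, D.kap_of_mem (hYW (hcommR x hx x' hx'))]
      generalize D.kap (x' * x) = g
      revert g
      decide)
    (hkap2 x hx) (hkap2 x' hx') (hline x hx _) (hline x hx _) (hline x' hx' _) (hline x' hx' _)
  -- `Y` contains a fixed vector
  let S : Finset (E → Bool) := Finset.univ.filter fun s =>
    (∀ h, s (mulE h (D.kap x)) = s h) ∧ ∀ h, s (mulE h (D.kap x')) = s h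
  have hYfix : ∀ y ∈ Yq, D.indQ y ∈ S := by
    intro y hy
    have hfixy : ∀ g ∈ R, conjQ g y = y := by
      intro g hg
      rw [hYq] at hy
      obtain ⟨u, hu, rfl⟩ := hy
      rw [QuotientGroup.mk'_apply, D.conjQ_mk]
      congr 1
      exact Subtype.ext (by
        change g * (u : T) * g⁻¹ = u
        rw [← hYcen u hu g hg, mul_inv_cancel_right])
    simp only [S, Finset.mem_filter, Finset.mem_univ, true_and]
    exact ⟨fun h => by rw [← D.indQ_conjQ, hfixy x hx], fun h => by rw [← D.indQ_conjQ, hfixy x' hx']⟩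
  obtain ⟨y, hy, hytrue⟩ : ∃ y ∈ Yq, D.indQ y = fun _ => true := by
    have hb : Function.Bijective fun y : ↥Yq => (⟨D.indQ y.1, hYfix y.1 y.2⟩ : ↥S) :=
      Function.Injective.bijective_of_nat_card_le
        (fun p q h => Subtype.ext (D.indQ_inj (Subtype.ext_iff.1 h)))
        (by rw [hYq4, Nat.card_eq_finsetCard, card_fix_two _ _ hd0 hd0' hxx' hc0 hc0'])
    obtain ⟨y, hy⟩ := hb.2 ⟨fun _ => true, by simp [S]⟩
    exact ⟨y.1, y.2, Subtype.ext_iff.1 hy⟩
  rw [hYq] at hy
  obtain ⟨y, hyY, rfl⟩ := hy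
  rw [QuotientGroup.mk'_apply, D.indQ_mk] at hytrue
  have hn := D.n_spec
  rw [D.counts.1] at hn
  have hdiff : D.n⁻¹ * (y : T) ∈ Z 3 := D.mem_Z3_of_ind (mul_mem (inv_mem hn.1) y.2) fun g => by
    rw [D.ind_mul (inv_mem hn.1) y.2, D.ind_inv hn.1, D.ind_fixed hn.1 hn.2.1 hn.2.2, hytrue]
    rfl
  have hy4 : (y : T) ∈ Z 4 := by
    have := mul_mem hn.2.1 (Subgroup.upperCentralSeries_mono T (show 3 ≤ 4 by omega) hdiff)
    rwa [mul_inv_cancel_left] at this
  have hy3 : (y : T) ∉ Z 3 := fun hc => hn.2.2 (by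
    have := mul_mem hc (inv_mem hdiff)
    rwa [mul_inv_rev, inv_inv, mul_inv_cancel_left] at this)
  obtain ⟨w, hw, hne'⟩ := D.exists_not_commute y.2 hy4 hy3
  refine hne' ?_
  -- the commutator is fixed by the four-group
  have hφfix : ∀ g ∈ R, g ∉ U → act3 (D.kap g) (D.pr ⁅(y : T), w⁆) = D.pr ⁅(y : T), w⁆ := by
    intro g hg hgU
    rw [← D.pr_conj g (D.comm_mem y.2 hw)]
    congr 1
    -- the displacement of `w` lies in the intersection
    have hmem : ⁅g, w⁆ ∈ U := by
      have hgW : ⁅g, w⁆ ∈ cW T := by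
        rw [commutatorElement_def]; exact mul_mem (conj_mem_W hw g) (inv_mem hw)
      obtain ⟨-, -, hfx⟩ := hfix g hg hgU
      have hq : (QuotientGroup.mk (⟨⁅g, w⁆, hgW⟩ : ↥(cW T)) : ↥(cW T) ⧸ (Zw T)) ∈ Uq := by
        refine hfx _ (D.indQ_inj (funext fun h => ?_))
        have h2 := hkap2 g hg
        rw [D.indQ_conjQ, D.indQ_mk, Subgroup.coe_mk, commutatorElement_def,
          D.ind_mul (conj_mem_W hw g) (inv_mem hw), D.ind_mul (conj_mem_W hw g) (inv_mem hw),
          D.ind_inv hw, D.ind_conj hw, D.ind_conj hw]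
        have hh : mulE (mulE h (D.kap g)) (D.kap g) = h := by
          revert h2
          generalize D.kap g = d
          revert d h
          decide
        rw [hh, D.ind_inv hw, Bool.xor_comm]
      rw [hUq] at hq
      obtain ⟨u, hu, huq⟩ := hq
      have h3 : u⁻¹ * ⟨⁅g, w⁆, hgW⟩ ∈ (Zw T) := QuotientGroup.eq.1 huq
      have := mul_mem (show (u : T) ∈ U from hu) (hZU h3)
      simpa using this
    have hyu : (y : T) * ⁅g, w⁆ = ⁅g, w⁆ * y := hYcen y hyY _ (hUR hmem)
    have hyg : (y : T) * g = g * y := hYcen y hyY _ hg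
    have e1 : g * ⁅(y : T), w⁆ * g⁻¹ = ⁅g * y * g⁻¹, g * w * g⁻¹⁆ :=
      (map_commutatorElement (MulAut.conj g).toMonoidHom (y : T) w)
    rw [e1, ← hyg, mul_inv_cancel_right, show g * w * g⁻¹ = ⁅g, w⁆ * w by
      simp [commutatorElement_def], commutatorElement_mul_right_eq_mul_conj,
      commutatorElement_eq_one_iff_mul_comm.2 hyu, one_mul]
    have hc : Commute ⁅g, w⁆ ⁅(y : T), w⁆ := (D.comm_Z3_W (D.comm_mem y.2 hw) (hUW hmem)).symm
    rw [hc.eq, mul_inv_cancel_right]
  exact fix_both _ _ _ hd0 hd0' hxx' hc0 hc0' (hφfix x hx hxU) (hφfix x' hx' hx'U)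

end Data

/-- A Sylow normalizer has a normal complement when the Sylow subgroup has no automorphisms of
odd order. -/
theorem normalizer_hasNormalTwoComplement {G : Type*} [Group G] [Finite G] (P : Sylow 2 G)
    (haut : ∀ a : MulAut ↥(P : Subgroup G), Odd (orderOf a) → a = 1) :
    Cfsg.HasNormalPComplement 2 ↥(Subgroup.normalizer ((P : Subgroup G) : Set G)) := by
  let Q : Sylow 2 ↥(Subgroup.normalizer ((P : Subgroup G) : Set G)) := P.subtype Subgroup.le_normalizer
  have hQc : (Q : Subgroup ↥(Subgroup.normalizer ((P : Subgroup G) : Set G))) =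
      (P : Subgroup G).subgroupOf _ := rfl
  haveI hQn : (Q : Subgroup ↥(Subgroup.normalizer ((P : Subgroup G) : Set G))).Normal := by
    rw [hQc]; exact Subgroup.normal_in_normalizer
  obtain ⟨K, hK⟩ := Subgroup.exists_right_complement'_of_coprime (N := Q.1) Q.card_coprime_index
  have hcent : ∀ k ∈ K, ∀ s ∈ (Q : Subgroup _), k * s = s * k := by
    intro k hk s hs
    have hodd : Odd (orderOf k) := by
      rw [← Nat.not_even_iff_odd, even_iff_two_dvd]
      intro h2
      have h3 : 2 ∣ Nat.card ↥K := by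
        have := orderOf_dvd_natCard (⟨k, hk⟩ : ↥K)
        rw [Subgroup.orderOf_mk] at this
        exact h2.trans this
      rw [← hK.symm.index_eq_card] at h3
      exact Q.not_dvd_index h3
    let a : MulAut ↥(P : Subgroup G) := (P : Subgroup G).normalizerMonoidHom k
    have h1 : a = 1 := haut a (hodd.of_dvd_nat (orderOf_map_dvd _ k))
    rw [hQc, Subgroup.mem_subgroupOf] at hs
    have h2 := congrArg Subtype.val (DFunLike.congr_fun h1 ⟨(s : G), hs⟩)
    simp [a, Subgroup.normalizerMonoidHom] at h2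
    refine Subtype.ext ?_
    simp only [Subgroup.coe_mul]
    exact mul_inv_eq_iff_eq_mul.1 h2
  refine ⟨Q, K, ?_, hK.symm⟩
  refine Subgroup.normalizer_eq_top_iff.1 (top_unique (hK.sup_eq_top ▸ sup_le (fun s hs => ?_)
    Subgroup.le_normalizer))
  refine Subgroup.mem_normalizer_iff.2 fun k => ⟨fun hk => ?_, fun hk => ?_⟩
  · rw [← hcent k hk s hs, mul_inv_cancel_right]; exact hk
  · have h := hcent _ hk s hs
    have e : s * k * s⁻¹ = k := by
      have h' : s * k * s⁻¹ * s = s * (s * k * s⁻¹) := h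
      simp only [mul_assoc, inv_mul_cancel, mul_one] at h'
      have h'' := mul_left_cancel h'
      simp only [← mul_assoc] at h''
      exact h''.symm
    rwa [e] at hk

end Cfsg.Agent.H76.Rud
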