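import Cfsg.Agent.H50.PSUThreeSylow
import Cfsg.Agent.H72.PCore
import Cfsg.Agent.H76.OutPSL
import Mathlib

/-!
The automorphism group of the Sylow 2-subgroup of `SU₃(q)`, `q` even.
-/

set_option autoImplicit false

namespace Cfsg.Agent.H76.UnitaryAut

open H50.PSUThree

variable {F : Type*} [Field F] [Fintype F] {q : ℕ} (H : Hyp F q)
include H

/-- The first coordinate. -/
def fst (x : H.U) : F := ((x : Matrix.SpecialLinearGroup (Fin 3) F) : Matrix (Fin 3) (Fin 3) F) 1 2

theorem fst_elt (a c : F) (h : c + c ^ q = a ^ (q + 1)) : fst H (H.elt a c h) = a := by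
  simp [fst, H.elt_val, mat_val]

/-- The second coordinate. -/
def snd (x : H.U) : F := ((x : Matrix.SpecialLinearGroup (Fin 3) F) : Matrix (Fin 3) (Fin 3) F) 0 2

theorem snd_elt (a c : F) (h : c + c ^ q = a ^ (q + 1)) : snd H (H.elt a c h) = c := by
  simp [snd, H.elt_val, mat_val]

theorem coords (x : H.U) : snd H x + snd H x ^ q = fst H x ^ (q + 1) := by
  obtain ⟨a, c, h, rfl⟩ := H.exists_elt x
  rw [fst_elt, snd_elt]; exact h

theorem ext_coords {x y : H.U} (h1 : fst H x = fst H y) (h2 : snd H x = snd H y) : x = y := by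
  obtain ⟨a, c, h, rfl⟩ := H.exists_elt x
  obtain ⟨b, d, hd, rfl⟩ := H.exists_elt y
  rw [fst_elt, fst_elt] at h1
  rw [snd_elt, snd_elt] at h2
  exact H.elt_eq_iff.2 ⟨h1, h2⟩

theorem fst_mul (x y : H.U) : fst H (x * y) = fst H x + fst H y := by
  obtain ⟨a, c, h, rfl⟩ := H.exists_elt x
  obtain ⟨b, d, hd, rfl⟩ := H.exists_elt y
  obtain ⟨_, e⟩ := H.elt_mul h hd
  rw [e, fst_elt, fst_elt, fst_elt]

theorem snd_mul (x y : H.U) : snd H (x * y) = snd H x + snd H y + fst H x ^ q * fst H y := by
  obtain ⟨a, c, h, rfl⟩ := H.exists_elt x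
  obtain ⟨b, d, hd, rfl⟩ := H.exists_elt y
  obtain ⟨_, e⟩ := H.elt_mul h hd
  rw [e, fst_elt, fst_elt, snd_elt, snd_elt, snd_elt]

theorem fst_one : fst H 1 = 0 := by
  have h := fst_mul H 1 1
  rw [mul_one] at h
  linear_combination -h

theorem snd_one : snd H 1 = 0 := by
  have h := snd_mul H 1 1
  rw [mul_one, fst_one] at h
  linear_combination -h

theorem mem_center_iff_fst (x : H.U) : x ∈ Subgroup.center H.U ↔ fst H x = 0 := by
  obtain ⟨a, c, h, rfl⟩ := H.exists_elt x
  rw [H.mem_center_iff, H.elt_sq, fst_elt]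

/-- A section of the first coordinate. -/
noncomputable def sec (a : F) : H.U :=
  H.elt a (H.exists_fibre a).choose (H.exists_fibre a).choose_spec

theorem fst_sec (a : F) : fst H (sec H a) = a := fst_elt H _ _ _

/-- The fixed field, as an additive group. -/
def fixedAdd : AddSubgroup F where
  carrier := {c | c ^ q = c}
  add_mem' := fun {x y} hx hy => by
    show (x + y) ^ q = x + y
    rw [H3.add_pow_q H.card, hx, hy]
  zero_mem' := H.zero_q
  neg_mem' := fun {x} hx => by rw [H.neg_eq]; exact hx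

theorem mem_fixedAdd {c : F} : c ∈ fixedAdd H ↔ c ^ q = c := Iff.rfl

theorem cen_mem (c : fixedAdd H) : (c : F) + (c : F) ^ q = (0 : F) ^ (q + 1) := by
  rw [zero_pow (Nat.succ_ne_zero q)]
  exact H.mem_fixed_iff.2 c.2

/-- The central element with second coordinate `c`. -/
def cen (c : fixedAdd H) : H.U := H.elt 0 c (cen_mem H c)

theorem fst_cen (c : fixedAdd H) : fst H (cen H c) = 0 := fst_elt H _ _ _

theorem snd_cen (c : fixedAdd H) : snd H (cen H c) = c := snd_elt H _ _ _

theorem snd_mul_cen (x : H.U) (c : fixedAdd H) : snd H (x * cen H c) = snd H x + c := by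
  rw [snd_mul, fst_cen, snd_cen, mul_zero, add_zero]

theorem fst_mul_cen (x : H.U) (c : fixedAdd H) : fst H (x * cen H c) = fst H x := by
  rw [fst_mul, fst_cen, add_zero]

theorem snd_mem_of_fst_eq_zero {x : H.U} (hx : fst H x = 0) : snd H x ∈ fixedAdd H := by
  have h := coords H x
  rw [hx, zero_pow (Nat.succ_ne_zero q)] at h
  exact H.mem_fixed_iff.1 h

/-- Two elements with the same first coordinate differ by a central element. -/
theorem exists_cen {x y : H.U} (h : fst H x = fst H y) : ∃ c : fixedAdd H, y = x * cen H c := by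
  have h0 : fst H (x⁻¹ * y) = 0 := by
    have h' := fst_mul H x (x⁻¹ * y)
    rw [mul_inv_cancel_left] at h'
    linear_combination -h' - h
  refine ⟨⟨_, snd_mem_of_fst_eq_zero H h0⟩, ?_⟩
  rw [show cen H ⟨_, snd_mem_of_fst_eq_zero H h0⟩ = x⁻¹ * y from
    ext_coords H (by rw [fst_cen, h0]) (snd_cen H _), mul_inv_cancel_left]

theorem fst_aut_congr (α : MulAut H.U) {x y : H.U} (h : fst H x = fst H y) :
    fst H (α x) = fst H (α y) := by
  obtain ⟨c, rfl⟩ := exists_cen H h
  have hc : fst H (α (cen H c)) = 0 := by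
    rw [← mem_center_iff_fst]
    refine Subgroup.mem_center_iff.2 fun g => α.symm.injective ?_
    rw [map_mul, map_mul, α.symm_apply_apply]
    exact Subgroup.mem_center_iff.1 ((mem_center_iff_fst H _).2 (fst_cen H c)) _
  rw [map_mul, fst_mul, hc, add_zero]

/-- The action on the first coordinate. -/
noncomputable def act (α : MulAut H.U) (a : F) : F := fst H (α (sec H a))

theorem fst_aut (α : MulAut H.U) (x : H.U) : fst H (α x) = act H α (fst H x) :=
  fst_aut_congr H α (fst_sec H _).symm

theorem act_one (a : F) : act H 1 a = a := fst_sec H a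

theorem act_mul (α β : MulAut H.U) (a : F) : act H (α * β) a = act H α (act H β a) :=
  fst_aut H α (β (sec H a))

/-- The action on the first coordinate, as a homomorphism. -/
noncomputable def rho : MulAut H.U →* Equiv.Perm F where
  toFun α :=
    { toFun := act H α
      invFun := act H α⁻¹
      left_inv := fun a => by rw [← act_mul, inv_mul_cancel, act_one]
      right_inv := fun a => by rw [← act_mul, mul_inv_cancel, act_one] }
  map_one' := Equiv.ext (act_one H)
  map_mul' α β := Equiv.ext (act_mul H α β)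

theorem rho_apply (α : MulAut H.U) (a : F) : rho H α a = act H α a := rfl

/-- Translation by a homomorphism into the centre. -/
def twist (h : F →+ fixedAdd H) (x : H.U) : H.U := x * cen H (h (fst H x))

theorem fst_twist (h : F →+ fixedAdd H) (x : H.U) : fst H (twist H h x) = fst H x :=
  fst_mul_cen H x _

theorem snd_twist (h : F →+ fixedAdd H) (x : H.U) :
    snd H (twist H h x) = snd H x + (h (fst H x) : F) := snd_mul_cen H x _

theorem twist_add (h k : F →+ fixedAdd H) (x : H.U) :
    twist H h (twist H k x) = twist H (h + k) x := by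
  refine ext_coords H ?_ ?_
  · rw [fst_twist, fst_twist, fst_twist]
  · rw [snd_twist, snd_twist, snd_twist, fst_twist, AddMonoidHom.add_apply, AddSubgroup.coe_add]
    ring

theorem twist_zero (x : H.U) : twist H 0 x = x := by
  refine ext_coords H (fst_twist H 0 x) ?_
  rw [snd_twist, AddMonoidHom.zero_apply, AddSubgroup.coe_zero, add_zero]

theorem twist_map_mul (h : F →+ fixedAdd H) (x y : H.U) :
    twist H h (x * y) = twist H h x * twist H h y := by
  refine ext_coords H ?_ ?_
  · rw [fst_twist, fst_mul, fst_mul, fst_twist, fst_twist]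
  · rw [snd_twist, snd_mul, fst_mul, snd_mul, fst_twist, fst_twist, snd_twist, snd_twist, map_add,
      AddSubgroup.coe_add]
    ring

/-- The translations, as automorphisms. -/
noncomputable def twistHom : Multiplicative (F →+ fixedAdd H) →* MulAut H.U where
  toFun h :=
    { toFun := twist H h.toAdd
      invFun := twist H (-h.toAdd)
      left_inv := fun x => by rw [twist_add, neg_add_cancel, twist_zero]
      right_inv := fun x => by rw [twist_add, add_neg_cancel, twist_zero]
      map_mul' := twist_map_mul H h.toAdd }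
  map_one' := MulEquiv.ext (twist_zero H)
  map_mul' h k := MulEquiv.ext fun x => (twist_add H h.toAdd k.toAdd x).symm

theorem twistHom_injective : Function.Injective (twistHom H) := by
  intro h k hhk
  refine Multiplicative.toAdd.injective (AddMonoidHom.ext fun a => Subtype.ext ?_)
  have e := congrArg (fun α : MulAut H.U => snd H (α (sec H a))) hhk
  change snd H (twist H h.toAdd (sec H a)) = snd H (twist H k.toAdd (sec H a)) at e
  rw [snd_twist, snd_twist, fst_sec] at e
  exact add_left_cancel e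

theorem trace_fixed (x : F) : (x + x ^ q) ^ q = x + x ^ q := by
  rw [H3.add_pow_q H.card, H3.pow_q_pow_q H.card, add_comm]

/-- The restriction of an automorphism to the centre, and its compatibility with squaring. -/
theorem exists_tau (α : MulAut H.U) :
    ∃ τ : fixedAdd H → fixedAdd H,
      (∀ c, α (cen H c) = cen H (τ c)) ∧
      (∀ c d, τ (c + d) = τ c + τ d) ∧
      (∀ a, (τ ⟨a ^ (q + 1), H3.norm_pow_q H.card a⟩ : F) = act H α a ^ (q + 1)) ∧
      (∀ a b (hab : (a ^ q * b + a * b ^ q) ^ q = a ^ q * b + a * b ^ q),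
        (τ ⟨a ^ q * b + a * b ^ q, hab⟩ : F) =
          act H α a ^ q * act H α b + act H α a * act H α b ^ q) := by
  have h0 : ∀ c, fst H (α (cen H c)) = 0 := fun c => by
    rw [fst_aut_congr H α (x := cen H c) (y := 1) (by rw [fst_cen, fst_one]), map_one, fst_one]
  let τ : fixedAdd H → fixedAdd H := fun c => ⟨_, snd_mem_of_fst_eq_zero H (h0 c)⟩
  have hτ : ∀ c, α (cen H c) = cen H (τ c) := fun c =>
    ext_coords H (by rw [h0, fst_cen]) (by rw [snd_cen])
  have hadd : ∀ c d, τ (c + d) = τ c + τ d := fun c d => by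
    have h1 : cen H (c + d) = cen H c * cen H d := ext_coords H
      (by rw [fst_cen, fst_mul_cen, fst_cen]) (by rw [snd_cen, snd_mul_cen, snd_cen, AddSubgroup.coe_add])
    have h2 := congrArg (fun x => snd H (α x)) h1
    simp only [map_mul, hτ] at h2
    rw [snd_cen, snd_mul_cen, snd_cen] at h2
    exact Subtype.ext h2
  have hsq : ∀ a, (τ ⟨a ^ (q + 1), H3.norm_pow_q H.card a⟩ : F) = act H α a ^ (q + 1) := by
    intro a
    have h1 : ∀ x : H.U, snd H (x * x) = fst H x ^ (q + 1) := fun x => by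
      rw [snd_mul, H.add_self, zero_add, ← pow_succ]
    have h2 : ∀ x : H.U, fst H (x * x) = 0 := fun x => by rw [fst_mul, H.add_self]
    have h3 : sec H a * sec H a = cen H ⟨a ^ (q + 1), H3.norm_pow_q H.card a⟩ :=
      ext_coords H (by rw [h2, fst_cen]) (by rw [h1, snd_cen, fst_sec])
    have h4 := congrArg (fun x => snd H (α x)) h3
    simp only [map_mul, hτ] at h4
    rw [h1, snd_cen] at h4
    exact h4.symm
  refine ⟨τ, hτ, hadd, hsq, fun a b hab => ?_⟩
  have hN : ∀ x y : F, (x + y) ^ (q + 1) =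
      x ^ (q + 1) + y ^ (q + 1) + (x ^ q * y + x * y ^ q) := fun x y => by
    rw [pow_succ, H3.add_pow_q H.card, pow_succ, pow_succ]; ring
  have hact : act H α (a + b) = act H α a + act H α b := by
    have h := fst_aut H α (sec H a * sec H b)
    rw [map_mul, fst_mul, fst_mul, fst_sec, fst_sec] at h
    exact h.symm
  have h5 := hsq (a + b)
  have h6 : (⟨(a + b) ^ (q + 1), H3.norm_pow_q H.card _⟩ : fixedAdd H) =
      ⟨a ^ (q + 1), H3.norm_pow_q H.card a⟩ + ⟨b ^ (q + 1), H3.norm_pow_q H.card b⟩ +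
        ⟨a ^ q * b + a * b ^ q, hab⟩ := Subtype.ext (hN a b)
  rw [h6, hadd, hadd, AddSubgroup.coe_add, AddSubgroup.coe_add, hsq, hsq, hact, hN] at h5
  exact add_left_cancel h5

theorem ker_rho : (rho H).ker = (twistHom H).range := by
  refine le_antisymm ?_ ?_
  · intro α hα
    have hact : ∀ a, act H α a = a := fun a =>
      Equiv.congr_fun (MonoidHom.mem_ker.1 hα) a
    obtain ⟨τ, hτ, hadd, hsq, -⟩ := exists_tau H α
    have hτid : ∀ c, τ c = c := by
      intro c
      obtain ⟨a, ha⟩ := H3.exists_norm_eq H.card c.2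
      have h := hsq a
      rw [hact] at h
      have hc : (⟨a ^ (q + 1), H3.norm_pow_q H.card a⟩ : fixedAdd H) = c := Subtype.ext ha
      rw [hc, ha] at h
      exact Subtype.ext h
    have hd : ∀ x, fst H (x⁻¹ * α x) = 0 := fun x => by
      have h := fst_mul H x (x⁻¹ * α x)
      rw [mul_inv_cancel_left, fst_aut, hact] at h
      linear_combination -h
    have hval : ∀ x, ∀ y, fst H x = fst H y → x⁻¹ * α x = y⁻¹ * α y := by
      intro x y hxy
      obtain ⟨c, rfl⟩ := exists_cen H hxy
      have hc := (mem_center_iff_fst H _).2 (fst_cen H c)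
      rw [map_mul, hτ, hτid, mul_inv_rev, mul_assoc, ← mul_assoc x⁻¹,
        Subgroup.mem_center_iff.1 hc, inv_mul_cancel_left]
    let d : F → fixedAdd H := fun a => ⟨_, snd_mem_of_fst_eq_zero H (hd (sec H a))⟩
    have hα' : ∀ x, α x = x * cen H (d (fst H x)) := by
      intro x
      have h1 : cen H (d (fst H x)) = x⁻¹ * α x := by
        rw [hval x (sec H (fst H x)) (fst_sec H _).symm]
        exact ext_coords H (by rw [fst_cen, hd]) (snd_cen H _)
      rw [h1, mul_inv_cancel_left]
    refine ⟨Multiplicative.ofAdd (AddMonoidHom.mk' d fun a b => ?_), MulEquiv.ext fun x => (hα' x).symm⟩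
    have h := map_mul α (sec H a) (sec H b)
    rw [hα', hα', hα', fst_mul, fst_sec, fst_sec] at h
    have h' := congrArg (snd H) h
    rw [snd_mul_cen, snd_mul, snd_mul, snd_mul_cen, snd_mul_cen, fst_mul_cen, fst_mul_cen, fst_sec,
      fst_sec] at h'
    exact Subtype.ext (by rw [AddSubgroup.coe_add]; linear_combination h')
  · rintro _ ⟨h, rfl⟩
    refine MonoidHom.mem_ker.2 (Equiv.ext fun a => ?_)
    show fst H (twist H h.toAdd (sec H a)) = a
    rw [fst_twist, fst_sec]

theorem charP : CharP F 2 := CharTwo.of_one_ne_zero_of_two_eq_zero one_ne_zero H.two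

theorem card_twist {n : ℕ} (hq : q = 2 ^ n) :
    Nat.card (Multiplicative (F →+ fixedAdd H)) = 2 ^ (2 * n ^ 2) := by
  let _ : Module (ZMod 2) F := AddCommGroup.zmodModule fun x => by rw [two_nsmul, H.add_self]
  let _ : Module (ZMod 2) (fixedAdd H) := AddCommGroup.zmodModule fun x =>
    Subtype.ext (by rw [two_nsmul, AddSubgroup.coe_add, AddSubgroup.coe_zero, H.add_self])
  haveI : Fact (Nat.Prime 2) := ⟨Nat.prime_two⟩
  have hr : Module.finrank (ZMod 2) F = n * 2 := by
    have h := Module.natCard_eq_pow_finrank (K := ZMod 2) (V := F)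
    rw [Nat.card_eq_fintype_card, H.card, hq, Nat.card_zmod, ← pow_mul] at h
    exact (Nat.pow_right_injective le_rfl h).symm
  have hK : Nat.card (fixedAdd H) = q := by
    exact H3.card_fixed H.card
  calc Nat.card (Multiplicative (F →+ fixedAdd H))
      = Nat.card (F →ₗ[ZMod 2] fixedAdd H) :=
        Nat.card_congr (Multiplicative.toAdd.trans (AddMonoidHom.toZModLinearMapEquiv 2).toEquiv)
    _ = Nat.card (Fin (Module.finrank (ZMod 2) F) → fixedAdd H) :=
        Nat.card_congr ((Module.finBasis (ZMod 2) F).constr ℕ).toEquiv.symm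
    _ = 2 ^ (2 * n ^ 2) := by
        rw [Nat.card_pi]
        simp only [hK, Finset.prod_const, Finset.card_univ, Fintype.card_fin, hr]
        rw [hq, ← pow_mul]; ring_nf

/-- The semilinear map with parameters `u`, `θ`, on the model. -/
def semi (u : Fˣ) (θ : F ≃+* F) (x : H.U) : H.U :=
  H.elt ((u : F) * θ (fst H x)) ((u : F) ^ (q + 1) * θ (snd H x)) (by
    have h := congrArg θ (coords H x)
    rw [map_add, map_pow, map_pow] at h
    rw [mul_pow, H3.norm_pow_q H.card, mul_pow, ← h, mul_add])

theorem fst_semi (u : Fˣ) (θ : F ≃+* F) (x : H.U) : fst H (semi H u θ x) = (u : F) * θ (fst H x) :=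
  fst_elt H _ _ _

theorem snd_semi (u : Fˣ) (θ : F ≃+* F) (x : H.U) :
    snd H (semi H u θ x) = (u : F) ^ (q + 1) * θ (snd H x) :=
  snd_elt H _ _ _

/-- The semilinear automorphisms. -/
noncomputable def semiAut (u : Fˣ) (θ : F ≃+* F) : MulAut H.U :=
  MulEquiv.ofBijective
    (MonoidHom.mk' (semi H u θ) fun x y => by
      refine ext_coords H ?_ ?_
      · rw [fst_semi, fst_mul, map_add, fst_mul, fst_semi, fst_semi, mul_add]
      · rw [snd_semi, snd_mul, map_add, map_add, map_mul, map_pow, snd_mul, fst_semi, fst_semi,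
          snd_semi, snd_semi, mul_pow, pow_succ (u : F) q]
        ring)
    (Finite.injective_iff_bijective.1 fun x y h => by
      have h1 := congrArg (fst H) h
      have h2 := congrArg (snd H) h
      simp only [MonoidHom.mk'_apply, fst_semi, snd_semi] at h1 h2
      exact ext_coords H (θ.injective (mul_left_cancel₀ u.ne_zero h1))
        (θ.injective (mul_left_cancel₀ (pow_ne_zero _ u.ne_zero) h2)))

/-- The semilinear permutations of the first coordinate. -/
def semiPerm (p : Fˣ × (F ≃+* F)) : Equiv.Perm F := p.2.toEquiv.trans (Equiv.mulLeft₀ (p.1 : F) p.1.ne_zero)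

omit H in
theorem semiPerm_apply (p : Fˣ × (F ≃+* F)) (a : F) : semiPerm p a = (p.1 : F) * p.2 a := rfl

omit H in
theorem semiPerm_injective : Function.Injective (semiPerm (F := F)) := by
  rintro ⟨u, θ⟩ ⟨v, η⟩ h
  have h1 := Equiv.congr_fun h 1
  simp only [semiPerm_apply, map_one, mul_one] at h1
  obtain rfl : u = v := Units.ext h1
  exact Prod.ext rfl (RingEquiv.ext fun a => mul_left_cancel₀ u.ne_zero (Equiv.congr_fun h a))

theorem rho_semiAut (u : Fˣ) (θ : F ≃+* F) : rho H (semiAut H u θ) = semiPerm (u, θ) :=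
  Equiv.ext fun a => by
    show fst H (semi H u θ (sec H a)) = _
    rw [fst_semi, fst_sec]; rfl

/-- A normalised additive bijection compatible with the Hermitian form is multiplicative. -/
theorem map_mul_of_norm (σ : F ≃+ F) (h1 : σ 1 = 1) (τ : F → F)
    (hnorm : ∀ x, τ (x ^ (q + 1)) = σ x ^ (q + 1))
    (hB : ∀ x y, τ (x ^ q * y + x * y ^ q) = σ x ^ q * σ y + σ x * σ y ^ q) :
    ∀ x y, σ (x * y) = σ x * σ y := by
  have hone : τ 1 = 1 := by
    have h := hnorm 1
    rwa [one_pow, h1, one_pow] at h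
  have hT : ∀ y, τ (y + y ^ q) = σ y + σ y ^ q := fun y => by
    have h := hB 1 y
    rwa [one_pow, one_mul, one_mul, h1, one_pow, one_mul, one_mul] at h
  have hτ0 : τ 0 = 0 := by
    have h := hT 0
    rwa [H.zero_q, map_zero, H.zero_q, add_zero] at h
  have hσK : ∀ a, a ^ q = a → σ a ^ q = σ a := fun a ha => by
    have h := hT a
    rw [H.mem_fixed_iff.2 ha, hτ0] at h
    exact H.mem_fixed_iff.1 h.symm
  have hBK : ∀ a y, a ^ q = a → τ (a * (y + y ^ q)) = σ a * (σ y + σ y ^ q) := fun a y ha => by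
    have h := hB a y
    rw [ha, hσK a ha] at h
    rw [mul_add, mul_add]
    exact h
  obtain ⟨v, hv⟩ := H.exists_trace_one
  have hw : σ v + σ v ^ q = 1 := by rw [← hT, hv, hone]
  have hτσ : ∀ a, a ^ q = a → τ a = σ a := fun a ha => by
    have h := hBK a v ha
    rwa [hv, hw, mul_one, mul_one] at h
  have hmulK : ∀ a b, a ^ q = a → b ^ q = b → σ (a * b) = σ a * σ b := fun a b ha hb => by
    have hab : (a * b) ^ q = a * b := by rw [mul_pow, ha, hb]
    have hbv : b * v + (b * v) ^ q = b := by rw [mul_pow, hb, ← mul_add, hv, mul_one]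
    have h := hBK a (b * v) ha
    rwa [hbv, hτσ _ hab, ← hT, hbv, hτσ b hb] at h
  have hmulKF : ∀ a x, a ^ q = a → σ (a * x) = σ a * σ x := by
    intro a x ha
    have key : ∀ y, (σ (a * x) ^ q * σ y + σ (a * x) * σ y ^ q) =
        ((σ a * σ x) ^ q * σ y + (σ a * σ x) * σ y ^ q) := by
      intro y
      have hK : (x ^ q * y + x * y ^ q) ^ q = x ^ q * y + x * y ^ q := by
        rw [H3.add_pow_q H.card, mul_pow, mul_pow, H3.pow_q_pow_q H.card, H3.pow_q_pow_q H.card]
        ring
      have haK : (a * (x ^ q * y + x * y ^ q)) ^ q = a * (x ^ q * y + x * y ^ q) := by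
        rw [mul_pow, ha, hK]
      rw [← hB, mul_pow, ha, mul_pow, hσK a ha,
        show a * x ^ q * y + a * x * y ^ q = a * (x ^ q * y + x * y ^ q) by ring, hτσ _ haK,
        hmulK _ _ ha hK, ← hτσ _ hK, hB]
      ring
    set D := σ (a * x) - σ a * σ x with hD
    have hz : ∀ z, D ^ q * z + D * z ^ q = 0 := fun z => by
      obtain ⟨y, rfl⟩ := σ.surjective z
      have hDq : D ^ q = σ (a * x) ^ q - (σ a * σ x) ^ q := by
        rw [hD, sub_eq_add_neg, H.neg_eq, H3.add_pow_q H.card, sub_eq_add_neg, H.neg_eq]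
      rw [hDq, hD]
      linear_combination key y
    have h := hz (D * v)
    rw [mul_pow] at h
    have hN : D ^ q * D * (v + v ^ q) = 0 := by linear_combination h
    rw [hv, mul_one, ← pow_succ] at hN
    exact sub_eq_zero.1 (eq_zero_of_pow_eq_zero hN)
  have hNv : (v ^ 2 + v) ^ q = v ^ 2 + v := by
    have h := H3.norm_pow_q H.card v
    rwa [pow_succ, show v ^ q * v = v ^ 2 + v by linear_combination v * hv - v ^ 2 * H.two] at h
  have hw2 : σ (v ^ 2) = σ v ^ 2 := by
    have h := hnorm v
    rw [pow_succ, pow_succ, show v ^ q * v = v ^ 2 + v by linear_combination v * hv - v ^ 2 * H.two,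
      show σ v ^ q * σ v = σ v ^ 2 + σ v by linear_combination σ v * hw - σ v ^ 2 * H.two,
      hτσ _ hNv, map_add] at h
    exact add_right_cancel h
  have hdecomp : ∀ x : F, ∃ a b, a ^ q = a ∧ b ^ q = b ∧ x = a + b * v := by
    intro x
    refine ⟨x + (x + x ^ q) * v, x + x ^ q, H.mem_fixed_iff.1 ?_, trace_fixed H x, ?_⟩
    · rw [H3.add_pow_q H.card, mul_pow, trace_fixed H]
      linear_combination (x + x ^ q) * hv + (x + x ^ q) * H.two
    · linear_combination -(x + x ^ q) * v * H.two
  intro x y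
  obtain ⟨a, b, ha, hb, rfl⟩ := hdecomp x
  obtain ⟨c, d, hc, hd, rfl⟩ := hdecomp y
  have hbd : (b * d) ^ q = b * d := by rw [mul_pow, hb, hd]
  have hmix : (a * d + b * c) ^ q = a * d + b * c := by
    rw [H3.add_pow_q H.card, mul_pow, mul_pow, ha, hb, hc, hd]
  rw [show (a + b * v) * (c + d * v) = a * c + (a * d + b * c) * v + b * d * v ^ 2 by ring,
    map_add, map_add, map_add, map_add, hmulKF _ _ hmix, hmulKF _ _ hbd, hmulKF _ _ hb,
    hmulKF _ _ hd, map_add, hmulKF _ _ ha, hmulKF _ _ ha, hmulKF _ _ hb, hmulKF _ _ hb, hw2]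
  ring

theorem range_rho : ((rho H).range : Set (Equiv.Perm F)) = Set.range semiPerm := by
  ext p
  constructor
  · rintro ⟨α, rfl⟩
    obtain ⟨τ, -, -, hsq, hB⟩ := exists_tau H α
    have hadd : ∀ a b, act H α (a + b) = act H α a + act H α b := by
      intro a b
      have h := fst_aut H α (sec H a * sec H b)
      rw [map_mul, fst_mul, fst_mul, fst_sec, fst_sec] at h
      exact h.symm
    have hu : act H α 1 ≠ 0 := by
      intro h
      have h0 : act H α 0 = 0 := by
        have h' := hadd 0 0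
        rw [add_zero] at h'
        linear_combination -h'
      exact one_ne_zero ((rho H α).injective (h.trans h0.symm))
    let σ : F ≃+ F :=
      { toEquiv := (rho H α).trans (Equiv.mulLeft₀ (act H α 1)⁻¹ (inv_ne_zero hu))
        map_add' := fun a b => by
          show (act H α 1)⁻¹ * act H α (a + b) = _
          rw [hadd, mul_add]; rfl }
    have hσ : ∀ a, σ a = (act H α 1)⁻¹ * act H α a := fun a => rfl
    have hσ1 : σ 1 = 1 := by rw [hσ, inv_mul_cancel₀ hu]
    classical
    let τ' : F → F := fun c =>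
      if h : c ^ q = c then ((act H α 1)⁻¹) ^ (q + 1) * (τ ⟨c, h⟩ : F) else 0
    have hmul := map_mul_of_norm H σ hσ1 τ'
      (fun x => by
        simp only [τ', dif_pos (H3.norm_pow_q H.card x), hsq, hσ, mul_pow])
      (fun x y => by
        have hK : (x ^ q * y + x * y ^ q) ^ q = x ^ q * y + x * y ^ q := by
          rw [H3.add_pow_q H.card, mul_pow, mul_pow, H3.pow_q_pow_q H.card, H3.pow_q_pow_q H.card]
          ring
        simp only [τ', dif_pos hK, hB x y hK, hσ, mul_pow, pow_succ]
        ring)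
    refine ⟨(Units.mk0 _ hu, { σ with map_mul' := hmul }), Equiv.ext fun a => ?_⟩
    show act H α 1 * ((act H α 1)⁻¹ * act H α a) = act H α a
    rw [mul_inv_cancel_left₀ hu]
  · rintro ⟨⟨u, θ⟩, rfl⟩
    exact ⟨semiAut H u θ, rho_semiAut H u θ⟩

theorem main {n : ℕ} (hn : 1 ≤ n) (hq : q = 2 ^ n) :
    Cfsg.IsElementaryAbelian 2 (Cfsg.pCore 2 (MulAut H.U)) ∧
      Nat.card (Cfsg.pCore 2 (MulAut H.U)) = 2 ^ (2 * n ^ 2) ∧
      Nat.card (MulAut H.U) = 2 ^ (2 * n ^ 2) * (2 * n * ((2 ^ n) ^ 2 - 1)) := by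
  classical
  haveI : Fact (Nat.Prime 2) := ⟨Nat.prime_two⟩
  haveI := charP H
  have hFcard : Nat.card F = 2 ^ (n * 2) := by rw [Nat.card_eq_fintype_card, H.card, hq, ← pow_mul]
  have hK : Nat.card (rho H).ker = 2 ^ (2 * n ^ 2) := by
    rw [ker_rho, ← card_twist H hq]
    exact Nat.card_congr (MonoidHom.ofInjective (twistHom_injective H)).toEquiv.symm
  have hfrob : ∀ (x : F) (k : ℕ), x ^ 2 ^ k = 1 → x = 1 := fun x k h =>
    (iterateFrobenius F 2 k).injective (by rw [map_one, iterateFrobenius_def, h])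
  have hrange : Nat.card (rho H).range = 2 * n * ((2 ^ n) ^ 2 - 1) := by
    have e : Nat.card (rho H).range = Nat.card (Fˣ × (F ≃+* F)) :=
      Nat.card_congr ((Equiv.setCongr (range_rho H)).trans (Equiv.ofInjective _ semiPerm_injective).symm)
    obtain ⟨eA⟩ := OutPSL.exists_ringAut_equiv (p := 2) (f := n * 2) (by omega) hFcard
    have hA : Nat.card (F ≃+* F) = n * 2 := by
      rw [show Nat.card (F ≃+* F) = Nat.card (RingAut F) from rfl, Nat.card_congr eA.toEquiv,
        Nat.card_congr Multiplicative.toAdd, Nat.card_zmod]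
    rw [e, Nat.card_prod, hA, Nat.card_units, hFcard, ← pow_mul, mul_comm 2 n, mul_comm]
  have hcard : Nat.card (MulAut H.U) = 2 ^ (2 * n ^ 2) * (2 * n * ((2 ^ n) ^ 2 - 1)) := by
    rw [Subgroup.card_eq_card_quotient_mul_card_subgroup (rho H).ker, hK,
      Nat.card_congr (QuotientGroup.quotientKerEquivRange (rho H)).toEquiv, hrange, mul_comm]
  have hP : Cfsg.pCore 2 (MulAut H.U) = (rho H).ker := by
    refine le_antisymm ?_ (H72.le_pCore inferInstance (IsPGroup.of_card hK))
    intro α hα
    rw [MonoidHom.mem_ker]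
    have hN := H72.pCore_normal (G := MulAut H.U) 2
    have hp := H72.pCore_isPGroup (G := MulAut H.U) 2
    obtain ⟨⟨u, θ⟩, hp'⟩ : rho H α ∈ Set.range semiPerm := by rw [← range_rho H]; exact ⟨α, rfl⟩
    have hpow : ∀ (β : MulAut H.U), β ∈ Cfsg.pCore 2 (MulAut H.U) → ∀ w : F,
        (∀ a, rho H β a = w * a) → w = 1 := by
      intro β hβ w hw
      obtain ⟨k, hk⟩ := hp ⟨β, hβ⟩
      have hk' : rho H β ^ 2 ^ k = 1 := by
        rw [← map_pow, show β ^ 2 ^ k = 1 from congrArg Subtype.val hk, map_one]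
      have hit : ∀ m : ℕ, (rho H β ^ m) 1 = w ^ m := by
        intro m
        induction m with
        | zero => simp
        | succ m ih => rw [pow_succ', Equiv.Perm.mul_apply, ih, hw, ← pow_succ']
      have h := hit (2 ^ k)
      rw [hk', Equiv.Perm.one_apply] at h
      exact hfrob w k h.symm
    have hθ : ∀ x : F, θ x = x := by
      intro x
      rcases eq_or_ne x 0 with rfl | hx
      · exact map_zero θ
      have hθx : θ x ≠ 0 := (map_ne_zero θ).2 hx
      set s := semiAut H (Units.mk0 x hx) (RingEquiv.refl F) with hs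
      have hmem : s * α * s⁻¹ * α⁻¹ ∈ Cfsg.pCore 2 (MulAut H.U) :=
        mul_mem (hN.conj_mem α hα s) (inv_mem hα)
      have hse : ∀ a, rho H s a = x * a := fun a => by rw [hs, rho_semiAut]; rfl
      have hsi : ∀ a, (rho H s)⁻¹ a = x⁻¹ * a := fun a => by
        rw [Equiv.Perm.inv_eq_iff_eq, hse, mul_inv_cancel_left₀ hx]
      have hw := hpow _ hmem (x / θ x) fun a => by
        have hb : rho H α ((rho H α)⁻¹ a) = a := Equiv.apply_symm_apply _ _
        set b := (rho H α)⁻¹ a with hbdef
        rw [map_mul, map_mul, map_mul, map_inv, map_inv, Equiv.Perm.mul_apply, Equiv.Perm.mul_apply,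
          Equiv.Perm.mul_apply, ← hbdef, hsi, hse, ← hb, ← hp', semiPerm_apply, semiPerm_apply,
          map_mul, map_inv₀]
        field_simp
      rw [div_eq_one_iff_eq hθx] at hw
      exact hw.symm
    have hu : (u : F) = 1 := hpow α hα u fun a => by rw [← hp', semiPerm_apply, hθ]
    refine Equiv.ext fun a => ?_
    rw [← hp', semiPerm_apply, hθ, hu, one_mul]; rfl
  rw [hP]
  refine ⟨⟨?_, ?_⟩, hK, hcard⟩
  · rw [ker_rho]
    refine ⟨⟨fun a b => Subtype.ext ?_⟩⟩
    obtain ⟨h, hh⟩ := a.2
    obtain ⟨k, hk⟩ := b.2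
    rw [Subgroup.coe_mul, Subgroup.coe_mul, ← hh, ← hk, ← map_mul, ← map_mul, mul_comm]
  · rw [ker_rho]
    rintro _ ⟨h, rfl⟩
    rw [← map_pow, show h ^ 2 = 1 from Multiplicative.toAdd.injective
      (AddMonoidHom.ext fun a => Subtype.ext (by
        rw [toAdd_pow, two_nsmul, AddMonoidHom.add_apply, AddSubgroup.coe_add, H.add_self]; rfl)),
      map_one]

end Cfsg.Agent.H76.UnitaryAut
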